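import Mathlib
import Cfsg.Agent.CLAS.Dickson

/-!
Two-dimensional linear groups of order prime to the characteristic.
-/

set_option autoImplicit false

open Matrix Subgroup
open scoped MatrixGroups

namespace CL.KT

open CL.PGL2 CL.Dk

theorem comm_of_cyclic {D X : Type*} [Group D] [Group X] (π : D →* X) (hπ : π.ker ≤ center D)
    (T : Subgroup X) [IsCyclic T] : ∀ a ∈ T.comap π, ∀ b ∈ T.comap π, a * b = b * a := by
  intro a ha b hb
  let f : T.comap π →* T := (π.comp (T.comap π).subtype).codRestrict _ fun x => x.2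
  have hf : f.ker ≤ center _ := fun x hx => mem_center_iff.mpr fun y =>
    Subtype.ext (mem_center_iff.mp (hπ (congrArg Subtype.val hx)) y)
  exact congrArg Subtype.val
    ((f.isMulCommutative_of_isCyclic_of_ker_le_center hf).is_comm.comm ⟨a, ha⟩ ⟨b, hb⟩)

/-- Dickson's theorem for linear groups of degree two of order prime to the characteristic. -/
theorem dick {K W D : Type*} [Field K] (p : ℕ) [hp : Fact p.Prime] [CharP K p] [AddCommGroup W]
    [Module K W] (hW : Module.finrank K W = 2) [Group D] [Finite D]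
    (σ : D →* Module.End K W) (hσ : Function.Injective σ) (hD : ¬ p ∣ Nat.card D) :
    (∃ B : Subgroup D, B.index ≤ 2 ∧ ∀ a ∈ B, ∀ b ∈ B, a * b = b * a) ∨
      ∃ (Z : Subgroup D) (_ : Z.Normal), (∀ z ∈ Z, ∃ c : K, ∀ w, σ z w = c • w) ∧
        IsPoly (D ⧸ Z) := by
  have : Module.Finite K W := Module.finite_of_finrank_pos (by omega)
  let b := Module.finBasisOfFinrankEq K W hW
  let L := AlgebraicClosure K
  let m : D →* Matrix (Fin 2) (Fin 2) L :=
    ((algebraMap K L).mapMatrix (m := Fin 2)).toMonoidHom.comp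
      ((LinearMap.toMatrixAlgEquiv b).toAlgHom.toRingHom.toMonoidHom.comp σ)
  have hm : ∀ g i j, m g i j = algebraMap K L (LinearMap.toMatrix b b (σ g) i j) := fun g i j => rfl
  have hdet : ∀ g, (m g).det ≠ 0 := fun g => by
    have : (m g).det * (m g⁻¹).det = 1 := by rw [← det_mul, ← map_mul, mul_inv_cancel, map_one, det_one]
    exact left_ne_zero_of_mul_eq_one this
  let π : D →* PGL(2, L) := MonoidHom.mk' (fun g => ofMat (m g) (hdet g)) fun g h => by
    rw [ofMat_mul]; simp only [map_mul]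
  have hsc : ∀ z ∈ π.ker, ∃ c : K, ∀ w, σ z w = c • w := fun z hz => by
    obtain ⟨h1, h2, h3⟩ := (ofMat_eq_one_iff (hdet z)).mp hz
    rw [hm, map_eq_zero] at h1 h2
    rw [hm, hm, (algebraMap K L).injective.eq_iff] at h3
    refine ⟨LinearMap.toMatrix b b (σ z) 0 0, fun w => ?_⟩
    have : σ z = LinearMap.toMatrix b b (σ z) 0 0 • LinearMap.id := by
      apply (LinearMap.toMatrix b b).injective
      rw [map_smul, LinearMap.toMatrix_id]
      ext i j
      fin_cases i <;> fin_cases j <;> simp [h1, h2, h3]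
    conv_lhs => rw [this]
    rfl
  have hcen : π.ker ≤ center D := fun z hz => mem_center_iff.mpr fun g => hσ (by
    obtain ⟨c, hc⟩ := hsc z hz
    ext w
    simp only [map_mul, Module.End.mul_apply, hc, map_smul])
  let ρ := QuotientGroup.kerLift π
  have hρ : Function.Injective ρ := QuotientGroup.kerLift_injective π
  have hk : (QuotientGroup.mk' π.ker).ker ≤ center D := by rwa [QuotientGroup.ker_mk']
  have hD' : ¬ p ∣ Nat.card (D ⧸ π.ker) := fun h => hD (h.trans (card_quotient_dvd_card _))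
  have hunp : ∀ (ρ : D ⧸ π.ker →* PGL(2, L)), Function.Injective ρ → ∀ x, unp ρ x = ⊥ := by
    intro ρ hρ x
    by_contra h
    obtain ⟨r, hr, hr'⟩ := Nat.exists_prime_and_dvd (mt card_eq_one.mp h)
    have := char_eq_of_card_unp hρ p hr hr'
    exact hD' (this ▸ hr'.trans (card_subgroup_dvd_card _))
  rcases dickson_pre hρ with ⟨x, hx⟩ | ⟨x, y, hxy, h1, h2⟩ | ⟨h, -⟩ | ⟨-, x, hx⟩ | ⟨x, hx, -⟩
  · left
    obtain ⟨h, rfl⟩ := exists_smul_inf x
    rw [← stab_cj] at hx
    have h1 : Function.Injective (multHom (cj h ρ)) := by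
      rw [← MonoidHom.ker_eq_bot_iff, ker_multHom, hunp _ (cj_injective h hρ), bot_subgroupOf]
    have : IsCyclic (stab (cj h ρ) inf) :=
      isCyclic_of_injective_ringHom ((Units.coeHom L).comp (multHom (cj h ρ)))
        (Units.val_injective.comp h1)
    refine ⟨_, ?_, comm_of_cyclic _ hk (stab (cj h ρ) inf)⟩
    rw [hx, comap_top, index_top]
    omega
  · left
    have := isCyclic_pairT hρ hxy
    refine ⟨_, ?_, comm_of_cyclic _ hk (pairT ρ x y)⟩
    rw [index_comap_of_surjective _ (QuotientGroup.mk'_surjective _), ← relIndex_top_right,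
      relIndex_pairT h1.ge fun h => h2 (top_le_iff.mp h)]
  · exact Or.inr ⟨_, inferInstance, hsc, h⟩
  · rw [hunp ρ hρ, card_bot] at hx
    omega
  · rw [hunp ρ hρ, card_bot] at hx
    omega

end CL.KT
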