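import Mathlib
import Cfsg.Agent.ODD.BG3.Lift
import Cfsg.Agent.CLAS.SLBasic
import Cfsg.Agent.S0139
import Cfsg.Agent.S0899
import Cfsg.Agent.S4485
import Cfsg.Agent.S4503
import Cfsg.Agent.S4504

/-!
Normal Sylow subgroups of linear groups of small degree.
-/

set_option autoImplicit false

open Subgroup Cfsg Module

namespace CL.KT

variable {G : Type*} [Group G] [Finite G]

theorem exists_complex {p : ℕ} [hp : Fact p.Prime] {V : Type*} [AddCommGroup V]
    [Module (ZMod p) V] [Finite V] {ρ : G →* Module.End (ZMod p) V} (hρ : Function.Injective ρ)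
    (hG : ¬ p ∣ Nat.card G) :
    ∃ τ : Representation ℂ G (Fin (finrank (ZMod p) V) → ℂ), Function.Injective τ := by
  classical
  have := Fintype.ofFinite G
  obtain ⟨χ, ⟨m, τ, rfl⟩, h⟩ := BG3.exists_character_lift (p := p) ρ hG
  have key : ∀ g, τ g = 1 → (∀ v, ρ g v = v) ∨ m < finrank (ZMod p) V := fun g hg => by
    have h1 := h (zpowers g)
    have h2 : ∀ a : zpowers g, τ.character a = m := by
      rintro ⟨_, k, rfl⟩
      have : τ (g ^ k) = 1 := (zpowers_le (H := τ.ker)).mpr hg ⟨k, rfl⟩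
      simp [Representation.character, this]
    simp only [h2, Finset.sum_const, Finset.card_univ, nsmul_eq_mul,
      ← Nat.card_eq_fintype_card] at h1
    have h3 := Nat.cast_injective (mul_left_cancel₀ (Nat.cast_ne_zero.mpr Nat.card_pos.ne') h1)
    rcases (Submodule.finrank_le (Representation.invariants
      (MonoidHom.comp ρ (zpowers g).subtype))).eq_or_lt with h4 | h4
    · left
      intro v
      have h5 : v ∈ Representation.invariants (MonoidHom.comp ρ (zpowers g).subtype) := by
        rw [Submodule.eq_top_of_finrank_eq h4]; trivial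
      exact h5 ⟨g, mem_zpowers g⟩
    · exact Or.inr (h3 ▸ h4)
  have hm : m = finrank (ZMod p) V := by
    have h1 := h ⊥
    have h2 : ∀ a : (⊥ : Subgroup G), τ.character a = m := fun a => by
      rw [show (a : G) = 1 from a.2]
      simp
    have h3 : Representation.invariants (MonoidHom.comp ρ (⊥ : Subgroup G).subtype) = ⊤ :=
      eq_top_iff.mpr fun v _ a => by
        change ρ a v = v
        rw [show (a : G) = 1 from a.2]
        simp
    simp only [h2, Finset.sum_const, Finset.card_univ, nsmul_eq_mul,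
      ← Nat.card_eq_fintype_card] at h1
    have h4 := Nat.cast_injective (mul_left_cancel₀ (Nat.cast_ne_zero.mpr Nat.card_pos.ne') h1)
    exact h4.trans ((congrArg (fun W : Submodule (ZMod p) V => finrank (ZMod p) W) h3).trans
      (finrank_top _ _))
  subst hm
  refine ⟨τ, (injective_iff_map_eq_one τ).mpr fun g hg => hρ ?_⟩
  rw [map_one]
  exact LinearMap.ext ((key g hg).resolve_right (lt_irrefl _))

variable {n : ℕ} {τ : Representation ℂ G (Fin n → ℂ)}

omit [Finite G] in
theorem charDegree_eq (τ : Representation ℂ G (Fin n → ℂ)) : charDegree τ.character = n := by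
  simp [charDegree]

theorem faithful (hτ : Function.Injective τ) (g : G) (hg : τ.character g = τ.character 1) :
    g = 1 := by
  rw [Representation.char_one] at hg
  exact hτ (((Agent.S0139.result τ g).mp hg).trans τ.map_one.symm)

theorem normal_or_psl (hτ : Function.Injective τ) {s : ℕ} [hs : Fact s.Prime]
    (h2 : ¬ s ^ 2 ∣ Nat.card G) (hn : 2 * n + 1 ≤ s) (Q : Sylow s G) :
    (Q : Subgroup G).Normal ∨ (2 * n + 1 = s ∧ Nonempty ((G ⧸ center G) ≃*
      Matrix.ProjectiveSpecialLinearGroup (Fin 2) (ZMod s))) := by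
  by_cases h1 : s ∣ Nat.card G
  swap
  · left
    obtain ⟨k, hk⟩ := IsPGroup.iff_card.mp Q.isPGroup'
    rcases k with _ | k
    · rw [card_eq_one.mp hk]; infer_instance
    · exact absurd ((dvd_pow_self s k.succ_ne_zero).trans (hk ▸ card_subgroup_dvd_card _)) h1
  by_cases h3 : ∀ H : Subgroup G, H.Normal → Nat.card H ≠ s
  · have h4 := Agent.S4503.result s hs.out h1 h2 h3 _ ⟨n, τ, rfl⟩ (faithful hτ)
    rw [charDegree_eq] at h4
    exact Or.inr ⟨by omega, Agent.S4504.result s hs.out h1 h2 h3 _ ⟨n, τ, rfl⟩ (faithful hτ)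
      (by rw [charDegree_eq]; omega)⟩
  · left
    push Not at h3
    obtain ⟨H, hH, h3⟩ := h3
    have hp : IsPGroup s H := IsPGroup.of_card (n := 1) (by rw [h3, pow_one])
    have h4 : H ≤ Q := hp.le_sylow_of_normal Q
    obtain ⟨k, hk⟩ := IsPGroup.iff_card.mp Q.isPGroup'
    have h5 : k ≤ 1 := by
      by_contra h
      exact h2 ((pow_dvd_pow s (by omega)).trans (hk ▸ card_subgroup_dvd_card _))
    rwa [← eq_of_le_of_card_ge h4 (by
      rw [h3, hk]; simpa using Nat.pow_le_pow_right hs.out.pos h5)]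

theorem card_psl {s : ℕ} [hs : Fact s.Prime] {n : ℕ} (h : 2 * n + 1 = s) :
    Nat.card (Matrix.ProjectiveSpecialLinearGroup (Fin 2) (ZMod s)) =
      2 * n * (n + 1) * (2 * n + 1) := by
  have h1 := SL.gcd_mul_card_PSL_two (F := ZMod s)
  generalize Nat.card (Matrix.ProjectiveSpecialLinearGroup (Fin 2) (ZMod s)) = c at h1 ⊢
  rw [Nat.card_zmod, ← h, Nat.add_sub_cancel, Nat.gcd_eq_left (dvd_mul_right 2 n),
    show (2 * n + 1) ^ 2 - 1 = 2 * (2 * n * (n + 1)) by
      rw [Nat.sub_eq_iff_eq_add (Nat.one_le_pow _ _ (by omega))]; ring] at h1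
  nlinarith

theorem six_dvd (n : ℕ) : 6 ∣ n * (n + 1) * (2 * n + 1) := by
  induction n with
  | zero => simp
  | succ n ih =>
    rw [show (n + 1) * (n + 1 + 1) * (2 * (n + 1) + 1) =
      n * (n + 1) * (2 * n + 1) + 6 * (n + 1) ^ 2 by ring]
    exact dvd_add ih (dvd_mul_right _ _)

theorem sylow_normal (hτ : Function.Injective τ) (hn : 0 < n) {s : ℕ} [hs : Fact s.Prime]
    (h : 2 * n + 1 < s ∨ (2 * n + 1 = s ∧ ¬ 3 ∣ Nat.card G)) (P : Sylow s G) :
    (P : Subgroup G).Normal := by
  refine Agent.S0899.result n τ hτ s (Or.inr ⟨by omega, fun K hK Q => ?_⟩) P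
  refine (normal_or_psl (τ := τ.comp K.subtype) (hτ.comp Subtype.val_injective) hK (by omega)
    Q).resolve_right fun ⟨h1, ⟨e⟩⟩ => ?_
  refine (h.resolve_left (by omega)).2 (dvd_trans ?_ ((card_quotient_dvd_card (center K)).trans
    (card_subgroup_dvd_card K)))
  rw [Nat.card_congr e.toEquiv, card_psl h1, mul_assoc, mul_assoc, ← mul_assoc n]
  exact ((show 3 ∣ 6 by norm_num).trans (six_dvd n)).mul_left 2

end CL.KT
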