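import Mathlib
import Cfsg.Agent.PERM.Huppert
import Cfsg.Agent.BLK.KT.Lift
import Cfsg.Agent.BLK.KT.Dick
import Cfsg.Agent.CLAS.PGL2Octa
import Cfsg.Agent.S3430

/-!
Linear groups of order prime to the characteristic, transitive on the non-zero vectors.
-/

set_option autoImplicit false

open Subgroup Cfsg Module

namespace CL.KT

open CL.RegLin

universe u

variable {p : ℕ} [hp : Fact p.Prime] {V : Type u} [AddCommGroup V] [Module (ZMod p) V]
  {G : Type*} [Group G] {ρ : G →* Module.End (ZMod p) V} [Finite V] [Nontrivial V] [Finite G]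

/-- There is an irreducible abelian normal subgroup. -/
def Sing (ρ : G →* Module.End (ZMod p) V) : Prop :=
  ∃ A : Subgroup G, A.Normal ∧ IsMulCommutative A ∧ Irr ρ A

/-- `r` is a primitive prime divisor of `p ^ n - 1`. -/
def Ppd (p n r : ℕ) : Prop := r.Prime ∧ r ∣ p ^ n - 1 ∧ ∀ i, 0 < i → i < n → ¬ r ∣ p ^ i - 1

omit [Finite G] in
theorem exists_field_red (hρ : Function.Injective ρ) (hT : Trans ρ) (A : Subgroup G) [A.Normal]
    (hc : IsMulCommutative A) (hirr : ¬ Irr ρ A) :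
    ∃ (K : Type u) (_ : Field K) (_ : Finite K) (_ : Module K V) (χ : A →* Kˣ) (e : ℕ)
      (σ : centralizer (A : Set G) →* Module.End K V),
      Nat.card K = p ^ e ∧ 2 ≤ finrank K V ∧ e * finrank K V = finrank (ZMod p) V ∧
      Function.Injective χ ∧ Nat.card A ∣ p ^ e - 1 ∧ (centralizer (A : Set G)).index ∣ e ∧
      Function.Injective σ ∧ (∀ g v, σ g v = ρ g v) ∧ ∀ (a : A) v, ρ a v = (χ a : K) • v := by
  obtain ⟨K, _, _, _, χ, e, hK, h1, h2, h3, D, hD, h4⟩ := exists_field hT A fun m hm n hn => by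
    rw [← map_mul, ← map_mul, le_centralizer A hn m hm]
  have hV : Nat.card V = (p ^ e) ^ finrank K V := by
    rw [← hK, Module.natCard_eq_pow_finrank (K := K)]
  have hχ : Function.Injective χ := by
    rw [injective_iff_map_eq_one]
    intro a ha
    refine Subtype.ext (hρ (LinearMap.ext fun v => ?_))
    rw [h1, ha]
    simp
  let σ : centralizer (A : Set G) →* Module.End K V :=
    { toFun := fun g => { toFun := ρ g, map_add' := map_add _, map_smul' := h2 g g.2 }
      map_one' := LinearMap.ext fun v => by simp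
      map_mul' := fun a b => LinearMap.ext fun v => rho_mul_apply _ _ _ }
  refine ⟨K, inferInstance, inferInstance, inferInstance, χ, e, σ, hK, ?_, ?_, hχ, ?_,
    (index_dvd_of_le (H := D) (K := centralizer (A : Set G)) fun g hg a ha => hρ (by
      rw [map_mul, map_mul, h4 g hg a ha])).trans hD,
    fun a b h => Subtype.ext (hρ (LinearMap.ext fun v =>
      congrArg (fun u : Module.End K V => u v) h)), fun _ _ => rfl, h1⟩
  · have h5 : 0 < finrank K V := Module.finrank_pos
    by_contra h6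
    refine hirr fun W hW => or_iff_not_imp_left.mpr fun h7 => eq_top_iff.mpr fun v _ => ?_
    obtain ⟨w, hw, hw0⟩ := (Submodule.ne_bot_iff W).mp h7
    obtain ⟨k, rfl⟩ := (finrank_eq_one_iff_of_nonzero' (K := K) w hw0).mp (by omega) v
    exact h3 W hW k w hw
  · rw [card_V (p := p), ← pow_mul] at hV
    exact (Nat.pow_right_injective hp.out.two_le hV).symm
  · rw [← hK, ← Nat.card_units]
    exact card_dvd_of_injective χ hχ

theorem Ppd.coprime {p n r : ℕ} (h : Ppd p n r) (hp : 0 < p) (hn : 0 < n) : r.Coprime p :=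
  (Nat.Prime.coprime_iff_not_dvd h.1).mpr fun h1 => h.1.one_lt.ne' (Nat.eq_one_of_dvd_one
    ((Nat.dvd_sub_iff_right (Nat.one_le_pow _ _ hp) (h1.trans (dvd_pow_self _ hn.ne'))).mp h.2.1))

theorem Ppd.dvd {p n r : ℕ} (h : Ppd p n r) (hp : 0 < p) (hn : 0 < n) : n ∣ r - 1 := by
  have key : ∀ i, r ∣ p ^ i - 1 ↔ (p : ZMod r) ^ i = 1 := fun i => by
    rw [← Nat.modEq_iff_dvd' (Nat.one_le_pow _ _ hp), ← ZMod.natCast_eq_natCast_iff, eq_comm]
    simp
  have := Fact.mk h.1
  have h1 : orderOf (p : ZMod r) = n := (orderOf_eq_iff hn).mpr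
    ⟨(key n).mp h.2.1, fun m hm hm0 e => h.2.2 m hm0 hm ((key m).mpr e)⟩
  rw [← h1]
  exact ZMod.orderOf_dvd_card_sub_one fun e =>
    (Nat.Prime.coprime_iff_not_dvd h.1).mp (h.coprime hp hn) ((ZMod.natCast_eq_zero_iff _ _).mp e)

variable {r : ℕ}

omit [Finite G] in
theorem irr_of_ppd (hρ : Function.Injective ρ) (h : Ppd p (finrank (ZMod p) V) r) {x : G}
    (hx : x ^ r = 1) (hx1 : x ≠ 1) : Irr ρ (zpowers x) := fun W hW => by
  have := Fact.mk h.1
  refine Hup.irr_of_primitive (r := r) (f := ρ x) (by rw [← map_pow, hx, map_one])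
    (fun e => hx1 (hρ (e.trans ρ.map_one.symm))) (by rw [Nat.card_zmod]; exact h.2.2)
    (by rw [Nat.card_zmod]; exact h.coprime hp.out.pos finrank_pos) W (hW x (mem_zpowers x))

theorem comm_of_ppd (hρ : Function.Injective ρ) (h : Ppd p (finrank (ZMod p) V) r) {x : G}
    (hx : x ^ r = 1) (hx1 : x ≠ 1) {a b : G} (ha : a ∈ centralizer {x})
    (hb : b ∈ centralizer {x}) : a * b = b * a := by
  have key : ∀ a ∈ centralizer ({x} : Set G), a ∈ centralizer (zpowers x : Set G) := fun a ha => by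
    rwa [zpowers_eq_closure, centralizer_closure]
  exact hρ (by rw [map_mul, map_mul, comm_of_irr (irr_of_ppd hρ h hx hx1) (key a ha) (key b hb)])

theorem sing_of_le (hρ : Function.Injective ρ) (hT : Trans ρ) (h : Ppd p (finrank (ZMod p) V) r)
    (B : Subgroup G) (hB : ∀ a ∈ B, ∀ b ∈ B, a * b = b * a) (hr : ∀ x : G, x ^ r = 1 → x ∈ B) :
    Sing ρ := by
  have := Fact.mk h.1
  obtain ⟨x, hx⟩ := exists_prime_orderOf_dvd_card' (G := G) r
    (h.2.1.trans (card_V (p := p) (V := V) ▸ card_sub_one_dvd hT))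
  have hx' : x ^ r = 1 := hx ▸ pow_orderOf_eq_one x
  have hle : normalClosure {x} ≤ B := (closure_le B).mpr fun y hy => by
    obtain ⟨z, hz, h1⟩ := Group.mem_conjugatesOfSet_iff.mp hy
    rw [Set.mem_singleton_iff.mp hz] at h1
    obtain ⟨c, rfl⟩ := isConj_iff.mp h1
    exact hr _ (by rw [conj_pow, hx', mul_one, mul_inv_cancel])
  refine ⟨normalClosure {x}, inferInstance, ⟨⟨fun a b => Subtype.ext (hB _ (hle a.2) _ (hle b.2))⟩⟩,
    (irr_of_ppd hρ h hx' fun e => h.1.one_lt.ne' (by rw [← hx, e, orderOf_one])).mono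
      (zpowers_le.mpr (subset_normalClosure rfl))⟩

omit [Finite G] in
theorem exists_pow_of_pGroup [Fact r.Prime] {P : Subgroup G} (hP : IsPGroup r P) {y : G}
    (hy : y ∈ P) (hy1 : y ≠ 1) : ∃ k : ℕ, (y ^ k) ^ r = 1 ∧ y ^ k ≠ 1 := by
  obtain ⟨k, hk⟩ := IsPGroup.iff_orderOf.mp hP ⟨y, hy⟩
  rw [orderOf_mk] at hk
  rcases k with _ | k
  · exact absurd (orderOf_eq_one_iff.mp hk) hy1
  refine ⟨r ^ k, by rw [← pow_mul, ← pow_succ, ← hk, pow_orderOf_eq_one], fun e => ?_⟩
  have := Nat.le_of_dvd (pow_pos (Fact.out : r.Prime).pos _) (orderOf_dvd_of_pow_eq_one e)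
  rw [hk] at this
  exact absurd this (Nat.pow_lt_pow_right (Fact.out : r.Prime).one_lt k.lt_succ_self).not_ge

theorem comm_of_pGroup (hρ : Function.Injective ρ) (h : Ppd p (finrank (ZMod p) V) r)
    {P : Subgroup G} (hP : IsPGroup r P) : ∀ a ∈ P, ∀ b ∈ P, a * b = b * a := by
  have := Fact.mk h.1
  intro a ha b hb
  by_cases h1 : P = ⊥
  · subst h1
    rw [mem_bot.mp ha, one_mul, mul_one]
  have := (nontrivial_iff_ne_bot P).mpr h1
  have := hP.center_nontrivial
  obtain ⟨⟨z, hz⟩, hz1⟩ := exists_ne (1 : center P)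
  obtain ⟨k, h2, h3⟩ := exists_pow_of_pGroup hP z.2 fun e => hz1 (Subtype.ext (Subtype.ext e))
  have key : ∀ c ∈ P, c ∈ centralizer ({(z : G) ^ k} : Set G) := fun c hc =>
    mem_centralizer_singleton_iff.mpr
      (congrArg Subtype.val (mem_center_iff.mp (pow_mem hz k) ⟨c, hc⟩))
  exact comm_of_ppd hρ h h2 h3 (key a ha) (key b hb)

theorem sing_of_normal (hρ : Function.Injective ρ) (hT : Trans ρ)
    (h : Ppd p (finrank (ZMod p) V) r) [Fact r.Prime] (P : Sylow r G)
    (hP : (P : Subgroup G).Normal) : Sing ρ :=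
  sing_of_le hρ hT h P (comm_of_pGroup hρ h P.isPGroup') fun x hx => by
    obtain ⟨Q, hQ⟩ := (show IsPGroup r (zpowers x) from IsPGroup.of_card_dvd_pow (n := 1) (by
      rw [Nat.card_zpowers, pow_one]; exact orderOf_dvd_of_pow_eq_one hx)).exists_le_sylow
    have := Sylow.unique_of_normal P hP
    exact Subsingleton.elim Q P ▸ hQ (mem_zpowers x)

theorem arith_psl {p n e d : ℕ} (hp : p.Prime) (hn : 3 ≤ n) (hr : (2 * n + 1).Prime)
    (he : e * d = n) (hd : 2 ≤ d) (h1 : ¬ p ∣ 2 * n * (n + 1) * (2 * n + 1))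
    (h2 : p ^ n - 1 ∣ (p ^ e - 1) * (2 * n * (n + 1) * (2 * n + 1))) : False := by
  have h6 : 6 ∣ 2 * n * (n + 1) * (2 * n + 1) := by
    rw [mul_assoc, mul_assoc, ← mul_assoc n]
    exact (six_dvd n).mul_left 2
  have hp5 : 5 ≤ p := by
    have := hp.two_le
    by_contra h
    interval_cases p
    · exact h1 (dvd_trans (by norm_num) h6)
    · exact h1 (dvd_trans (by norm_num) h6)
    · norm_num at hp
  have he0 : 0 < e := Nat.pos_of_ne_zero fun h => by rw [h] at he; omega
  obtain ⟨u, hu⟩ := Nat.exists_eq_add_of_le (show e ≤ n by nlinarith)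
  have heu : e ≤ u := by nlinarith
  have h3 : 1 < p ^ e := Nat.one_lt_pow he0.ne' hp.one_lt
  have h4 : p ^ u ≤ 2 * n * (n + 1) * (2 * n + 1) := by
    have h5 := Nat.le_of_dvd (Nat.mul_pos (by omega) (by positivity)) h2
    refine Nat.le_of_mul_le_mul_left (le_trans ?_ h5) (show 0 < p ^ e - 1 by omega)
    rw [hu, pow_add, Nat.sub_mul, one_mul]
    exact Nat.sub_le_sub_left (Nat.one_le_pow _ _ hp.pos) _
  have h7 : ∀ u : ℕ, 4 * (u + 6) * (2 * (u + 6) + 1) * (4 * (u + 6) + 1) < 5 ^ (u + 6) := fun u => by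
    induction u with
    | zero => norm_num
    | succ u ih => rw [show u + 1 + 6 = u + 6 + 1 by ring, pow_succ]; nlinarith [sq_nonneg u]
  have hu5 : u ≤ 5 := by
    by_contra h
    obtain ⟨w, rfl⟩ := Nat.exists_eq_add_of_le' (show 6 ≤ u by omega)
    refine absurd ((h7 w).trans_le ((Nat.pow_le_pow_left hp5 _).trans h4)) (not_lt.mpr ?_)
    exact Nat.mul_le_mul (Nat.mul_le_mul (by omega) (by omega)) (by omega)
  have hp68 : p < 68 := by
    by_contra h
    have h8 : 68 ^ 2 ≤ p ^ u := (Nat.pow_le_pow_left (by omega) 2).trans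
      (Nat.pow_le_pow_right hp.pos (by omega))
    have h9 : 2 * n * (n + 1) * (2 * n + 1) ≤ 20 * 11 * 21 :=
      Nat.mul_le_mul (Nat.mul_le_mul (by omega) (by omega)) (by omega)
    omega
  have key : (List.range 11).all (fun n => (List.range 6).all fun e => (List.range 68).all fun p =>
      !(decide (3 ≤ n ∧ e ∣ n ∧ e < n) && decide p.Prime && decide (2 * n + 1).Prime &&
        decide (¬ p ∣ 2 * n * (n + 1) * (2 * n + 1)) &&
        decide (p ^ n - 1 ∣ (p ^ e - 1) * (2 * n * (n + 1) * (2 * n + 1))))) = true := by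
    decide +kernel
  simp only [List.all_eq_true, List.mem_range] at key
  have := key n (by omega) e (by omega) p hp68
  rw [decide_eq_true hp, decide_eq_true hr, decide_eq_true h1, decide_eq_true h2,
    decide_eq_true ⟨hn, ⟨d, he.symm⟩, by omega⟩] at this
  exact absurd this (by decide)

/-- The generic case: there is a large primitive prime divisor. -/
theorem sing_of_large (hρ : Function.Injective ρ) (hT : Trans ρ) (hG : ¬ p ∣ Nat.card G)
    (hn : 3 ≤ finrank (ZMod p) V) (h : Ppd p (finrank (ZMod p) V) r)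
    (hr : finrank (ZMod p) V + 1 < r ∨ r ^ 2 ∣ p ^ finrank (ZMod p) V - 1) : Sing ρ := by
  have := Fact.mk h.1
  obtain ⟨τ, hτ⟩ := exists_complex hρ hG
  have hV := card_sub_one_dvd hT
  rw [card_V (p := p)] at hV
  obtain ⟨P⟩ := Sylow.nonempty (p := r) (G := G)
  obtain ⟨c, hc⟩ := h.dvd hp.out.pos (by omega)
  have hr2 := h.1.two_le
  have hc0 : 0 < c := Nat.pos_of_ne_zero fun e => by rw [e] at hc; omega
  by_cases h2 : r ^ 2 ∣ Nat.card G
  · refine sing_of_normal hρ hT h P (Agent.S4485.result r h.1 (h.2.1.trans hV) P (fun x hx hx1 =>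
      le_antisymm (fun a ha b hb => ?_) (centralizer_le (Set.singleton_subset_iff.mpr hx))) _
      (P.card_eq_multiplicity) _ ⟨_, τ, rfl⟩ (faithful hτ) ?_)
    · obtain ⟨k, h3, h4⟩ := exists_pow_of_pGroup P.isPGroup' hx hx1
      exact comm_of_ppd hρ h h3 h4 (mem_centralizer_singleton_iff.mpr
        (comm_of_pGroup hρ h P.isPGroup' _ hb _ (pow_mem hx k))) (mem_centralizer_singleton_iff.mpr
          (Commute.pow_right (mem_centralizer_singleton_iff.mp ha) k))
    · rw [charDegree_eq]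
      refine lt_of_lt_of_le ?_ (Nat.pow_le_pow_right h.1.pos
        ((h.1.pow_dvd_iff_le_factorization Nat.card_pos.ne').mp h2))
      have : finrank (ZMod p) V + 1 ≤ r := by
        have := Nat.le_mul_of_pos_right (finrank (ZMod p) V) hc0
        omega
      nlinarith
  have h3 := hr.resolve_right fun e => h2 (e.trans hV)
  have h4 : 2 * finrank (ZMod p) V + 1 ≤ r := by
    have h5 : 2 ≤ c := by
      by_contra h5
      rw [show c = 1 by omega] at hc
      omega
    have := Nat.mul_le_mul_left (finrank (ZMod p) V) h5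
    omega
  rcases normal_or_psl hτ h2 h4 P with h5 | ⟨h5, ⟨e⟩⟩
  · exact sing_of_normal hρ hT h P h5
  by_cases hZ : Irr ρ (center G)
  · exact ⟨_, inferInstance, inferInstance, hZ⟩
  obtain ⟨K, _, _, _, χ, e', σ, -, h6, h7, -, h8, -⟩ :=
    exists_field_red hρ hT (center G) inferInstance hZ
  have h9 := card_eq_card_quotient_mul_card_subgroup (center G)
  rw [Nat.card_congr e.toEquiv, card_psl h5] at h9
  exact (arith_psl hp.out hn (h5 ▸ h.1) h7 h6 (fun e => hG (h9 ▸ e.mul_right _))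
    (hV.trans (by rw [h9, mul_comm]; exact Nat.mul_dvd_mul_right h8 _))).elim

omit [Finite V] [Nontrivial V] in
theorem card_poly {X : Type*} [Group X] (h : Dk.IsPoly X) :
    Nat.card X = 12 ∨ Nat.card X = 24 ∨ Nat.card X = 60 := by
  rcases h with ⟨⟨e⟩⟩ | ⟨⟨e⟩⟩ | ⟨⟨e⟩⟩ <;> rw [Nat.card_congr e.toEquiv]
  · exact Or.inl Dk.card_alt_four
  · exact Or.inr (Or.inl Dk.card_sym_four)
  · exact Or.inr (Or.inr Dk.card_alt_five)

/-- The exceptional cases of dimension six. -/
theorem sing_of_six (hρ : Function.Injective ρ) (hT : Trans ρ) (hG : ¬ p ∣ Nat.card G)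
    (hn : finrank (ZMod p) V = 6) (hp' : p = 3 ∨ p = 5) : Sing ρ := by
  obtain ⟨τ, hτ⟩ := exists_complex hρ hG
  have hV := card_sub_one_dvd hT
  rw [card_V (p := p), hn] at hV
  obtain ⟨s, hs, h1, h2, h3⟩ : ∃ s, s.Prime ∧ s ∣ p ^ 6 - 1 ∧ (∀ e ≤ 2, 0 < e → ¬ s ∣ p ^ e - 1) ∧
      (13 < s ∨ (13 = s ∧ ¬ 3 ∣ Nat.card G)) := by
    rcases hp' with rfl | rfl
    · exact ⟨13, by norm_num, by norm_num, by decide, Or.inr ⟨rfl, hG⟩⟩
    · exact ⟨31, by norm_num, by norm_num, by decide, Or.inl (by norm_num)⟩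
  have h7 : Ppd p (finrank (ZMod p) V) 7 := by
    rw [hn]
    refine ⟨by norm_num, ?_, fun i h1 h2 => ?_⟩
    · rcases hp' with rfl | rfl <;> norm_num
    · rcases hp' with rfl | rfl <;> interval_cases i <;> norm_num
  have := Fact.mk hs
  obtain ⟨P⟩ := Sylow.nonempty (p := s) (G := G)
  have hP := sylow_normal hτ (by omega) (by rw [hn]; exact h3) P
  let A : Subgroup G := centralizer ((P : Subgroup G) : Set G) ⊓ P
  have : A.Normal := normal_inf_normal _ _
  have hA : IsMulCommutative A :=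
    le_centralizer_iff_isMulCommutative.mp (inf_le_left.trans (centralizer_le inf_le_right))
  by_cases hirr : Irr ρ A
  · exact ⟨A, inferInstance, hA, hirr⟩
  obtain ⟨K, _, _, _, χ, e, σ, hK, h4, h5, -, h6, h8, hσ, -⟩ := exists_field_red hρ hT A hA hirr
  have h9 : s ∣ Nat.card A := by
    have := (nontrivial_iff_ne_bot (P : Subgroup G)).mpr (P.ne_bot_of_dvd_card (h1.trans hV))
    have := P.isPGroup'.center_nontrivial
    obtain ⟨⟨z, hz⟩, hz1⟩ := exists_ne (1 : center P)
    refine (P.isPGroup'.to_le inf_le_right).card_eq_or_dvd.resolve_left fun e => hz1 ?_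
    have : (z : G) ∈ A := ⟨fun c hc => congrArg Subtype.val (mem_center_iff.mp hz ⟨c, hc⟩), z.2⟩
    exact Subtype.ext (Subtype.ext ((card_eq_one.mp e).le this))
  rw [hn] at h5
  have he : e = 3 := by
    have : e ≤ 3 := by nlinarith
    have h0 : 0 < e := Nat.pos_of_ne_zero fun h => by rw [h] at h5; omega
    by_contra h
    exact h2 e (by omega) h0 (h9.trans h6)
  subst he
  have := Fintype.ofFinite K
  have : CharP K p := charP_of_card_eq_prime_pow (Nat.card_eq_fintype_card.symm.trans hK)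
  have hC : ∀ x : G, x ^ 7 = 1 → x ∈ centralizer (A : Set G) := fun x hx => by
    have h10 : x ^ 3 ∈ centralizer (A : Set G) := by
      obtain ⟨c, hc⟩ := h8
      rw [hc, pow_mul]
      exact pow_mem (pow_index_mem _ x) c
    have := pow_mem h10 5
    rwa [← pow_mul, show 3 * 5 = 7 * 2 + 1 by norm_num, pow_succ, pow_mul, hx, one_pow,
      one_mul] at this
  rcases dick p (by omega) σ hσ (fun h => hG (h.trans (card_subgroup_dvd_card _))) with
    ⟨B, hB, hc⟩ | ⟨Z, _, hZ, hpoly⟩
  · refine sing_of_le hρ hT h7 (B.map (centralizer (A : Set G)).subtype) ?_ fun x hx => ?_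
    · rintro _ ⟨a, ha, rfl⟩ _ ⟨b, hb, rfl⟩
      exact congrArg Subtype.val (hc a ha b hb)
    · have h10 : (⟨x, hC x hx⟩ : centralizer (A : Set G)) ^ 2 ∈ B := by
        have : B.index ≠ 0 := FiniteIndex.index_ne_zero
        by_cases h : B.index = 2
        · exact sq_mem_of_index_two h _
        · rw [index_eq_one.mp (by omega : B.index = 1)]; trivial
      refine ⟨_, pow_mem h10 4, ?_⟩
      rw [← pow_mul, map_pow]
      change x ^ (7 + 1) = x
      rw [pow_succ, hx, one_mul]
  · exfalso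
    have := Fact.mk h7.1
    have h10 : 7 ∣ Nat.card Z := by
      obtain ⟨x, hx⟩ := exists_prime_orderOf_dvd_card' (G := G) 7 ((hn ▸ h7.2.1).trans hV)
      have h11 : 7 ∣ Nat.card (centralizer (A : Set G)) :=
        hx ▸ orderOf_dvd_natCard _ (hC x (hx ▸ pow_orderOf_eq_one x))
      rw [card_eq_card_quotient_mul_card_subgroup Z] at h11
      refine (h7.1.dvd_mul.mp h11).resolve_left ?_
      rcases card_poly hpoly with h | h | h <;> rw [h] <;> norm_num
    obtain ⟨z, hz⟩ := exists_prime_orderOf_dvd_card' (G := Z) 7 h10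
    obtain ⟨c, hc⟩ := hZ z z.2
    obtain ⟨v, hv⟩ := exists_ne (0 : V)
    have h11 : ∀ k : ℕ, ∀ w, σ (z ^ k) w = c ^ k • w := fun k => by
      induction k with
      | zero => simp
      | succ k ih => intro w; rw [pow_succ, map_mul, Module.End.mul_apply, hc, ih, smul_smul, pow_succ]
    have h12 : c ^ 7 = 1 := by
      have h13 := h11 7 v
      rw [← coe_pow, ← hz, pow_orderOf_eq_one, hz, OneMemClass.coe_one, map_one,
        Module.End.one_apply] at h13
      exact smul_left_injective K hv (h13.symm.trans (one_smul K v).symm)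
    have h13 : c ≠ 1 := fun e => by
      have : z = 1 := Subtype.ext (hσ (LinearMap.ext fun w => by rw [hc, e]; simp))
      rw [this, orderOf_one] at hz
      omega
    have h14 := orderOf_dvd_natCard (Units.mk0 c fun e => by simp [e] at h12)
    rw [← orderOf_units, Units.val_mk0, orderOf_eq_prime h12 h13, Nat.card_units, hK] at h14
    exact h7.2.2 3 (by norm_num) (by omega) h14

/-- Dimension two. -/
theorem sing_or_poly (hρ : Function.Injective ρ) (hT : Trans ρ) (hG : ¬ p ∣ Nat.card G)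
    (hn : finrank (ZMod p) V = 2) : Sing ρ ∨ ∃ (Z : Subgroup G) (_ : Z.Normal),
      (∀ z ∈ Z, ∃ c : ZMod p, ∀ w, ρ z w = c • w) ∧ Nat.card Z ∣ p - 1 ∧ Dk.IsPoly (G ⧸ Z) := by
  have key : ∀ A : Subgroup G, A.Normal → (∀ a ∈ A, ∀ b ∈ A, a * b = b * a) →
      Sing ρ ∨ Nat.card A ∣ p - 1 := fun A _ hA => by
    have hA' : IsMulCommutative A := ⟨⟨fun a b => Subtype.ext (hA a a.2 b b.2)⟩⟩
    by_cases hirr : Irr ρ A
    · exact Or.inl ⟨A, inferInstance, hA', hirr⟩
    obtain ⟨K, _, _, _, χ, e, σ, -, h4, h5, -, h6, -⟩ := exists_field_red hρ hT A hA' hirr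
    rw [hn] at h5
    have h0 : 0 < e := Nat.pos_of_ne_zero fun h => by rw [h] at h5; omega
    rw [show e = 1 by nlinarith, pow_one] at h6
    exact Or.inr h6
  rcases dick p hn ρ hρ hG with ⟨B, hB, hc⟩ | ⟨Z, _, hZ, hpoly⟩
  · have : B.index ≠ 0 := FiniteIndex.index_ne_zero
    have hn' : B.Normal := by
      by_cases h : B.index = 2
      · exact normal_of_index_eq_two h
      · rw [index_eq_one.mp (by omega : B.index = 1)]; infer_instance
    refine Or.inl ((key B hn' hc).resolve_right fun h => ?_)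
    have h1 := Nat.le_of_dvd Nat.card_pos (card_sub_one_dvd hT)
    obtain ⟨q, hq⟩ := Nat.exists_eq_add_of_le' hp.out.two_le
    have h2 := Nat.mul_le_mul (Nat.le_of_dvd (by omega) h) hB
    rw [card_V (p := p), hn, ← B.card_mul_index] at h1
    have h3 : p ^ 2 ≤ (p - 1) * 2 + 1 := by omega
    rw [hq, show q + 2 - 1 = q + 1 from rfl] at h3
    nlinarith
  · refine (key Z inferInstance fun a ha b hb => hρ ?_).imp_right fun h => ⟨Z, _, hZ, h, hpoly⟩
    obtain ⟨c, hc⟩ := hZ a ha
    ext w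
    simp only [map_mul, Module.End.mul_apply, hc, map_smul]

end CL.KT
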