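import Mathlib
import Cfsg.Agent.FGS.ClassCount

/-!
Class numbers of one-dimensional semilinear groups.
-/

set_option autoImplicit false

open Subgroup

namespace CL.KT

/-- The conclusion of the `k(GV)` theorem for transitive groups. -/
def Good (G : Type*) [Group G] (q : ℕ) : Prop :=
  ∀ h, Nat.card G = (q - 1) * h → Nat.card (ConjClasses G) + h ≤ q ∧
    (Nat.card (ConjClasses G) + h = q →
      IsCyclic G ∨ (q = 8 ∧ Nat.card G = 21) ∨ (q = 9 ∧ Nat.card G = 16))

variable {G : Type*} [Group G]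

theorem sum_le_of_mem [Fintype G] (A : Subgroup G) (c : G → ℕ) {a b : ℕ}
    (ha : ∀ x ∈ A, c x ≤ a) (hb : ∀ x ∉ A, c x ≤ b) :
    ∑ x, c x ≤ Nat.card A * a + (A.index - 1) * Nat.card A * b := by
  classical
  rw [← Finset.sum_filter_add_sum_filter_not Finset.univ (· ∈ A)]
  have h1 : (Finset.univ.filter (· ∈ A)).card = Nat.card A := by
    rw [Nat.card_eq_fintype_card, Fintype.card_subtype]
  have h2 := Finset.card_filter_add_card_filter_not (s := (Finset.univ : Finset G)) (· ∈ A)
  rw [h1, Finset.card_univ, ← Nat.card_eq_fintype_card, ← A.index_mul_card] at h2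
  have h3 : (Finset.univ.filter (· ∉ A)).card = (A.index - 1) * Nat.card A := by
    rw [Nat.sub_mul, one_mul]; omega
  rw [← h3, ← h1]
  exact Nat.add_le_add (Finset.sum_le_card_nsmul _ _ _ fun x hx => ha x (by simpa using hx))
    (Finset.sum_le_card_nsmul _ _ _ fun x hx => hb x (by simpa using hx))

theorem card_le_index_mul [Finite G] (A B : Subgroup G) :
    Nat.card B ≤ A.index * Nat.card ↥(A ⊓ B) := by
  have h1 := (A.subgroupOf B).index_mul_card
  have h2 : Nat.card (A.subgroupOf B) = Nat.card ↥(A ⊓ B) := by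
    rw [← inf_subgroupOf_right]
    exact Nat.card_congr (subgroupOfEquivOfLe inf_le_right).toEquiv
  rw [← h1, h2]
  refine Nat.mul_le_mul_right _ ?_
  have := relIndex_le_of_le_right (H := A) (K := B) (L := ⊤) le_top
    (by rw [relIndex_top_right]; exact FiniteIndex.index_ne_zero)
  rwa [relIndex_top_right] at this

/-- Counting commuting pairs along the cosets of a subgroup. -/
theorem card_conjClasses_mul_le [Finite G] (A : Subgroup G) {f : ℕ}
    (hf : ∀ x ∉ A, Nat.card ↥(A ⊓ centralizer {x}) ≤ f) :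
    Nat.card (ConjClasses G) * A.index ≤ Nat.card A + (A.index * A.index - 1) * f := by
  classical
  have := Fintype.ofFinite G
  have h1 := CL.sum_card_centralizer_eq (G := G)
  rw [← Finset.sum_filter_add_sum_filter_not Finset.univ (· ∈ A)] at h1
  have h2 : ∑ x with x ∈ A, Nat.card (centralizer ({x} : Set G)) =
      ∑ y, Nat.card ↥(A ⊓ centralizer {y}) := by
    simp only [Nat.card_eq_fintype_card, Fintype.card_subtype, Finset.card_filter,
      Finset.sum_filter]
    rw [Finset.sum_comm' (t' := Finset.univ) (s' := fun _ => Finset.univ) (by simp)]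
    refine Finset.sum_congr rfl fun x _ => ?_
    split_ifs with h
    · refine Finset.sum_congr rfl fun y _ => ?_
      simp [h, mem_centralizer_singleton_iff, eq_comm]
    · simp [h]
  have h3 := sum_le_of_mem A (fun y => Nat.card ↥(A ⊓ centralizer {y}))
    (fun x _ => card_le_of_le inf_le_left) hf
  have h4 := sum_le_of_mem A (fun x => if x ∈ A then 0 else Nat.card (centralizer ({x} : Set G)))
    (a := 0) (b := A.index * f) (fun x hx => by simp [hx]) fun x hx => by
      rw [if_neg hx]
      exact (card_le_index_mul A _).trans (Nat.mul_le_mul_left _ (hf x hx))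
  have h5 : ∑ x with x ∉ A, Nat.card (centralizer ({x} : Set G)) =
      ∑ x, if x ∈ A then 0 else Nat.card (centralizer ({x} : Set G)) := by
    rw [Finset.sum_filter]
    exact Finset.sum_congr rfl fun x _ => by split_ifs <;> rfl
  rw [h2, h5, ← A.index_mul_card] at h1
  have h6 : 0 < Nat.card A := Nat.card_pos
  obtain ⟨m, hm⟩ := Nat.exists_eq_add_of_le' (Nat.pos_of_ne_zero (FiniteIndex.index_ne_zero (H := A)))
  rw [hm] at h1 h3 h4 ⊢
  rw [show (m + 1) * (m + 1) - 1 = m * (m + 2) by rw [Nat.sub_eq_iff_eq_add (by nlinarith)]; ring]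
  rw [Nat.add_sub_cancel] at h3 h4
  refine Nat.le_of_mul_le_mul_right ?_ h6
  nlinarith

theorem arith_fix {p n m t c : ℕ} (hp : p.Prime) (hn : 0 < n) (hm : m ≤ n) (ht : 2 ≤ t)
    (hpt : ¬ p ∣ t) (htm : t ∣ m) (hc : c ^ t = p ^ n) :
    (m + 1) * c < p ^ n ∨ (p ^ n = 8 ∧ m = 3 ∧ c = 2) ∨ (p ^ n = 9 ∧ m = 2 ∧ c = 3) := by
  obtain ⟨j, -, rfl⟩ := (Nat.dvd_prime_pow hp).mp (hc ▸ dvd_pow_self c (by omega : t ≠ 0))
  rw [← pow_mul] at hc
  have hjt := Nat.pow_right_injective hp.two_le hc
  obtain ⟨s, rfl⟩ := Nat.exists_eq_add_of_le' ht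
  have hj : 0 < j := Nat.pos_of_ne_zero fun h => by rw [h] at hjt; omega
  have e1 : p ^ n = p ^ (j * (s + 1)) * p ^ j := by rw [← pow_add, ← hjt]; congr 1
  have hpos : 0 < p ^ j := pow_pos hp.pos _
  by_cases h : m + 1 < p ^ (j * (s + 1))
  · exact Or.inl (e1 ▸ Nat.mul_lt_mul_of_pos_right h hpos)
  right
  have h3 : ∀ u : ℕ, 2 * (u + 2) + 1 < 3 ^ (u + 2) := fun u => by
    induction u with
    | zero => norm_num
    | succ u ih => rw [show u + 1 + 2 = u + 2 + 1 by ring, pow_succ]; omega
  have h2 : ∀ u : ℕ, 3 * (u + 3) + 2 < 2 * 2 ^ (u + 3) := fun u => by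
    induction u with
    | zero => norm_num
    | succ u ih => rw [show u + 1 + 3 = u + 3 + 1 by ring, pow_succ]; omega
  have hm0 : m ≠ 0 := by
    rintro rfl
    exact h (Nat.one_lt_pow (by positivity) hp.one_lt)
  have htm' := Nat.le_of_dvd (by omega) htm
  rcases hp.eq_two_or_odd' with rfl | hodd
  · left
    have hs : 1 ≤ s := by omega
    have hu : j * (s + 1) ≤ 2 := by
      by_contra hu
      obtain ⟨u, hu⟩ := Nat.exists_eq_add_of_le' (show 3 ≤ j * (s + 1) by omega)
      have := h2 u
      rw [← hu] at this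
      nlinarith
    have hj1 : j = 1 := by nlinarith
    have hs1 : s = 1 := by nlinarith
    subst hj1 hs1
    omega
  · right
    have hp3 : 3 ≤ p := by have := hp.two_le; rcases hodd with ⟨k, hk⟩; omega
    have h4 := Nat.pow_le_pow_left hp3 (j * (s + 1))
    have hu : j * (s + 1) ≤ 1 := by
      by_contra hu
      obtain ⟨u, hu⟩ := Nat.exists_eq_add_of_le' (show 2 ≤ j * (s + 1) by omega)
      have := h3 u
      rw [← hu] at this
      nlinarith
    have hj1 : j = 1 := by nlinarith
    have hs1 : s = 0 := by nlinarith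
    subst hj1 hs1
    obtain rfl : n = 2 := by omega
    obtain rfl : p = 3 := by simp at h; omega
    omega

theorem card_fixed_pow {F : Type*} [Field F] [Finite F] (S : Subgroup (F ≃+* F)) :
    Nat.card (FixedPoints.subfield S F) ^ Nat.card S = Nat.card F := by
  have : Finite (F ≃+* F) := Finite.of_injective _ DFunLike.coe_injective
  have := Fintype.ofFinite S
  rw [Nat.card_eq_fintype_card (α := S), ← FixedPoints.finrank_eq_card S F,
    ← Module.natCard_eq_pow_finrank]

/-- The semilinear groups in dimension one. -/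
theorem good_of_cocycle [Finite G] {F : Type*} [Field F] [Finite F] {p n : ℕ} (hp : p.Prime)
    (hF : Nat.card F = p ^ n) (hG : ¬ p ∣ Nat.card G) (a : G → F) (φ : G →* (F ≃+* F))
    (ha : ∀ g h, a (g * h) = a g * φ g (a h)) (ha0 : ∀ g, a g ≠ 0)
    (hinj : ∀ g, a g = 1 → φ g = 1 → g = 1) : Good G (p ^ n) := by
  intro h hh
  have hq : 1 < p ^ n := hF ▸ Finite.one_lt_card
  have hn : 0 < n := Nat.pos_of_ne_zero fun h => by simp [h] at hq
  let A := φ.ker
  let α : A →* Fˣ := MonoidHom.mk' (fun g => Units.mk0 (a g) (ha0 g)) fun g g' => Units.ext (by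
    have : φ g = 1 := g.2
    simp [ha, this])
  have hα : Function.Injective α := (injective_iff_map_eq_one α).mpr fun g hg =>
    Subtype.ext (hinj g (congrArg Units.val hg) g.2)
  have hA : Nat.card A ≤ p ^ n - 1 := by
    rw [← hF, ← Nat.card_units]
    exact Nat.card_le_card_of_injective α hα
  have hm : A.index ≤ n := by
    have h1 := card_fixed_pow φ.range
    rw [← index_ker, hF] at h1
    have h2 : 1 < Nat.card (FixedPoints.subfield φ.range F) := Finite.one_lt_card
    obtain ⟨j, -, hj⟩ := (Nat.dvd_prime_pow hp).mp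
      (h1 ▸ dvd_pow_self _ (FiniteIndex.index_ne_zero (H := A)))
    rw [hj, ← pow_mul] at h1
    rw [← Nat.pow_right_injective hp.two_le h1]
    exact Nat.le_mul_of_pos_left _ (Nat.pos_of_ne_zero fun h => by simp [hj, h] at h2)
  have hfix : ∀ x ∉ A, ∃ c, Nat.card ↥(A ⊓ centralizer {x}) + 1 ≤ c ∧
      ((A.index + 1) * c < p ^ n ∨ (p ^ n = 8 ∧ A.index = 3 ∧ c = 2) ∨
        (p ^ n = 9 ∧ A.index = 2 ∧ c = 3)) := fun x hx => by
    have h1 := card_fixed_pow (zpowers (φ x))
    have h2 : Nat.card (zpowers (φ x)) ∣ A.index := by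
      rw [index_ker]
      exact card_dvd_of_le (zpowers_le.mpr ⟨x, rfl⟩)
    refine ⟨_, ?_, arith_fix hp hn hm ?_ (fun h => hG ((h.trans h2).trans A.index_dvd_card)) h2
      (h1.trans hF)⟩
    · let β : ↥(A ⊓ centralizer {x}) → (FixedPoints.subfield (zpowers (φ x)) F)ˣ := fun y =>
        Units.mk0 ⟨a y, by
          have h3 : φ x (a y) = a y := by
            have h4 : φ y = 1 := y.2.1
            have h5 := congrArg a (mem_centralizer_singleton_iff.mp y.2.2)
            rw [ha, ha, h4, mul_comm (a y)] at h5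
            exact (mul_left_cancel₀ (ha0 x) h5).symm
          rintro ⟨s, hs⟩
          exact (zpowers_le (H := MulAction.stabilizer (F ≃+* F) (a y))).mpr h3 hs⟩
          fun h => ha0 y (congrArg Subtype.val h)
      have hβ : Function.Injective β := fun y y' e => by
        have h3 : a y = a y' := congrArg (fun u => (u.1 : F)) (congrArg Units.val e)
        have h4 := hα (a₁ := ⟨y, y.2.1⟩) (a₂ := ⟨y', y'.2.1⟩) (Units.ext h3)
        exact Subtype.ext (congrArg (fun u : A => (u : G)) h4)
      have h3 := Nat.card_le_card_of_injective β hβ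
      rw [Nat.card_units] at h3
      have : 0 < Nat.card (FixedPoints.subfield (zpowers (φ x)) F) := Nat.card_pos
      omega
    · have : Finite (F ≃+* F) := Finite.of_injective _ DFunLike.coe_injective
      exact (one_lt_card_iff_ne_bot _).mpr fun h => hx (zpowers_eq_bot.mp h)
  have hAG := A.card_mul_index
  rw [hh] at hAG
  have hhm : h ≤ A.index := by
    by_contra h1
    have := Nat.mul_le_mul hA (show A.index + 1 ≤ h by omega)
    have : 0 < Nat.card A := Nat.card_pos
    nlinarith
  by_cases hA1 : A.index = 1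
  · have hk : Nat.card (ConjClasses G) ≤ Nat.card G :=
      Nat.card_le_card_of_surjective _ ConjClasses.mk_surjective
    have : Nat.card G = Nat.card A := by rw [← A.card_mul_index, hA1, mul_one]
    refine ⟨by omega, fun _ => Or.inl ?_⟩
    have hc : IsCyclic A := isCyclic_of_injective_ringHom ((Units.coeHom F).comp α)
      (Units.val_injective.comp hα)
    rw [index_eq_one.mp hA1] at hc
    exact isCyclic_of_surjective _ topEquiv.surjective
  have hA0 : A.index ≠ 0 := FiniteIndex.index_ne_zero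
  by_cases hex : (p ^ n = 8 ∧ A.index = 3) ∨ (p ^ n = 9 ∧ A.index = 2)
  · have h1 := card_conjClasses_mul_le A (f := p ^ n / (A.index + 1) - 1) fun x hx => by
      obtain ⟨c, h1, h2⟩ := hfix x hx
      rcases hex with ⟨e1, e2⟩ | ⟨e1, e2⟩ <;> rw [e1, e2] at h2 ⊢ <;> omega
    rw [hh]
    rcases hex with ⟨e1, e2⟩ | ⟨e1, e2⟩ <;> rw [e1, e2] at h1 hAG <;> rw [e2] at hhm <;>
      rw [e1] at hA ⊢ <;> omega
  obtain ⟨x, hx⟩ : ∃ x, x ∉ A := by
    by_contra h1
    push Not at h1
    exact hA1 (index_eq_one.mpr ((eq_top_iff' A).mpr h1))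
  have h0 : ∀ x ∉ A, Nat.card ↥(A ⊓ centralizer {x}) + 1 ≤ (p ^ n - 1) / (A.index + 1) :=
    fun x hx => by
      obtain ⟨c, h1, h2⟩ := hfix x hx
      refine h1.trans ((Nat.le_div_iff_mul_le (by omega)).mpr ?_)
      rw [mul_comm]
      omega
  have h1 := card_conjClasses_mul_le A (f := (p ^ n - 1) / (A.index + 1) - 1) fun x hx => by
    have := h0 x hx
    omega
  have h2 := Nat.mul_div_le (p ^ n - 1) (A.index + 1)
  obtain ⟨f, hf⟩ := Nat.exists_eq_add_of_le' ((Nat.le_add_left 1 _).trans (h0 x hx))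
  obtain ⟨m, hm'⟩ := Nat.exists_eq_add_of_le' (show 2 ≤ A.index by omega)
  obtain ⟨q, hq'⟩ := Nat.exists_eq_add_of_le' hq.le
  rw [hf] at h1 h2
  rw [hm'] at h1 h2 hhm
  rw [hq'] at h2 hA ⊢
  rw [show (m + 2) * (m + 2) - 1 = (m + 1) * (m + 3) by
    rw [Nat.sub_eq_iff_eq_add (by nlinarith)]; ring] at h1
  rw [Nat.add_sub_cancel] at h1 h2 hA
  have h3 : Nat.card (ConjClasses G) + h < q + 1 := by
    refine Nat.lt_of_mul_lt_mul_right (a := m + 2) ?_
    nlinarith
  exact ⟨h3.le, fun e => absurd e h3.ne⟩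

end CL.KT
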