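import Mathlib
import Cfsg.Agent.BLK.KT.Class
import Cfsg.Agent.BLK.KT.Count
import Cfsg.Agent.SOLV.Fitting
import Cfsg.Agent.S0144
import Cfsg.Agent.S4200

/-!
Transitive linear `3'`-groups on a space with `81` elements.
-/

set_option autoImplicit false

open Subgroup Cfsg Module
open scoped commutatorElement

namespace CL.KT

open CL.RegLin

section Group

variable {G : Type*} [Group G] [Finite G]

theorem card_conjClasses_le_eight_mul (A N : Subgroup G) [N.Normal] {a : ℕ} (hA : Nat.card A = a)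
    (hN : Nat.card N = 16 * a) (hG : Nat.card G = 80 * a) (ha : a ≤ 2)
    (h : ∀ w : G, w ^ 5 = 1 → w ≠ 1 → ∀ t ∈ N, w * t = t * w → t ∈ A) :
    Nat.card (ConjClasses G) ≤ 8 * a := by
  classical
  have := Fintype.ofFinite G
  have := Fact.mk Nat.prime_five
  have ha0 : 0 < a := hA ▸ Nat.card_pos
  have hi : N.index = 5 := by
    have := N.card_mul_index
    rw [hN, hG] at this
    nlinarith
  have key : ∀ y : G, Nat.card (centralizer ({y} : Set G)) ≤
      (if y ∈ A then 64 * a else 0) + (if y ∈ N then 11 * a else 0) + 5 * a := fun y => by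
    by_cases hy : y ∈ N
    · rw [if_pos hy]
      have h1 := card_subgroup_dvd_card (centralizer ({y} : Set G))
      split_ifs with hy'
      · have := Nat.le_of_dvd Nat.card_pos h1
        omega
      have h2 : ¬ 5 ∣ Nat.card (centralizer ({y} : Set G)) := fun h2 => by
        obtain ⟨w, hw⟩ := exists_prime_orderOf_dvd_card' 5 h2
        rw [← orderOf_coe] at hw
        exact hy' (h w (hw ▸ pow_orderOf_eq_one _) (fun e => by simp [e] at hw) y hy
          (mem_centralizer_singleton_iff.mp w.2))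
      rw [hG, show 80 * a = 5 * (16 * a) by ring] at h1
      have := Nat.le_of_dvd (by omega) (Nat.Coprime.dvd_of_dvd_mul_left
        ((Nat.Prime.coprime_iff_not_dvd Nat.prime_five).mpr h2).symm h1)
      omega
    · have h1 : 5 ∣ orderOf y := by
        have h2 : orderOf (y : G ⧸ N) = 5 := orderOf_eq_prime
          (by rw [← hi]; exact pow_card_eq_one') fun e => hy ((QuotientGroup.eq_one_iff y).mp e)
        exact h2 ▸ orderOf_map_dvd (QuotientGroup.mk' N) y
      have h2 := orderOf_pow_orderOf_div (orderOf_pos y).ne' h1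
      have h3 : N ⊓ centralizer {y} ≤ A := fun t ht =>
        h (y ^ (orderOf y / 5)) (orderOf_dvd_iff_pow_eq_one.mp h2.dvd)
          (fun e => by simp [e] at h2) t ht.1
          (Commute.pow_left (mem_centralizer_singleton_iff.mp ht.2).symm _)
      have h4 := card_le_index_mul N (centralizer {y})
      have h5 := card_le_of_le h3
      rw [hi] at h4
      omega
  have h1 := Finset.sum_le_sum (s := Finset.univ) fun y _ => key y
  have h2 : ∀ (B : Subgroup G) (c : ℕ), ∑ y, (if y ∈ B then c else 0) = Nat.card B * c :=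
    fun B c => by
      rw [← Finset.sum_filter, Finset.sum_const, Nat.card_eq_fintype_card, Fintype.card_subtype,
        smul_eq_mul]
  rw [CL.sum_card_centralizer_eq, Finset.sum_add_distrib, Finset.sum_add_distrib, h2, h2,
    Finset.sum_const, Finset.card_univ, ← Nat.card_eq_fintype_card, hA, hN, hG, smul_eq_mul] at h1
  nlinarith

omit [Finite G] in
theorem comm_mem_iff (A : Subgroup G) [A.Normal] (x y : G) :
    ⁅x, y⁆ ∈ A ↔ Commute (x : G ⧸ A) y := by
  rw [← QuotientGroup.eq_one_iff, ← commutatorElement_eq_one_iff_commute]; rfl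

theorem index_le_twenty [Group.IsSolvable G] {K : Type*} [Field K] {A N : Subgroup G} [A.Normal]
    [N.Normal] {χ : A →* Kˣ} (hχ : Function.Injective χ) (hA : centralizer (A : Set G) = ⊤)
    (hA2 : Nat.card A ∣ 2) (hAN : A < N) (hN : ∀ x ∈ N, ∀ y ∈ N, ⁅x, y⁆ ∈ A)
    (hZ : centralizer (N : Set G) ⊓ N ≤ A)
    (hcls : ∀ N : Subgroup G, N.Normal → A < N → (∀ x ∈ N, ∀ y ∈ N, ⁅x, y⁆ ∈ A) →
      A.relIndex N = 16) {a : ℕ} (hG : Nat.card G = 2 ^ a * 5) : N.index ≤ 20 := by
  have h16 := hcls N inferInstance hAN hN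
  have hcard : ∀ M : Subgroup G, A ≤ M → Nat.card M = Nat.card A * A.relIndex M := fun M hM => by
    rw [← (A.subgroupOf M).card_mul_index, Nat.card_congr (subgroupOfEquivOfLe hM).toEquiv]; rfl
  have hC : centralizer (N : Set G) = A := by
    have h1 : A ≤ centralizer (N : Set G) := le_centralizer_iff.mp (le_top.trans hA.ge)
    by_contra h
    obtain ⟨M, _, h2, h3, h4⟩ := exists_class_two A _ (lt_of_le_of_ne h1 (Ne.symm h))
    have h5 := hcls (N ⊔ M) inferInstance (hAN.trans_le le_sup_left) fun x hx y hy => by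
      obtain ⟨n, hn, m, hm, rfl⟩ := mem_sup_of_normal_left.mp hx
      obtain ⟨n', hn', m', hm', rfl⟩ := mem_sup_of_normal_left.mp hy
      have k : ∀ n ∈ N, ∀ m ∈ M, Commute (n : G ⧸ A) m := fun n hn m hm =>
        Commute.map (h3 hm n hn) (QuotientGroup.mk' A)
      rw [comm_mem_iff, QuotientGroup.mk_mul, QuotientGroup.mk_mul]
      exact (((comm_mem_iff A _ _).mp (hN n hn n' hn')).mul_right (k n hn m' hm')).mul_left
        ((k n' hn' m hm).symm.mul_right ((comm_mem_iff A _ _).mp (h4 m hm m' hm')))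
    have h6 : N = N ⊔ M := eq_of_le_of_card_ge le_sup_left (by
      rw [hcard _ hAN.le, hcard _ (hAN.le.trans le_sup_left), h5, h16])
    exact h2.not_ge ((le_inf h3 (h6 ▸ le_sup_right)).trans hZ)
  have hN2 : IsPGroup 2 N := IsPGroup.of_card_dvd_pow (n := 5) (by
    rw [hcard N hAN.le, h16]; exact Nat.mul_dvd_mul_right hA2 16)
  have hO : pCore 2 (G ⧸ N) = ⊥ := by
    let L := (pCore 2 (G ⧸ N)).comap (QuotientGroup.mk' N)
    have hL : IsPGroup 2 L := (isPGroup_pCore 2 _).comap_of_ker_isPGroup _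
      (by rwa [QuotientGroup.ker_mk'])
    have hNL : N ≤ L := QuotientGroup.le_comap_mk' _ _
    let π := QuotientGroup.mk' A
    have hπ := QuotientGroup.mk'_surjective A
    have : (L.map π).Normal := Normal.map inferInstance π hπ
    have : (N.map π).Normal := Normal.map inferInstance π hπ
    have h1 := inf_centralizer_ne_bot_of_isPGroup (hN2.map π) (hL.map π) le_normalizer_of_normal
      fun h => hAN.not_ge (by rwa [Subgroup.map_eq_bot_iff, QuotientGroup.ker_mk'] at h)
    let M := (N.map π ⊓ centralizer (L.map π : Set (G ⧸ A))).comap π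
    have hMN : M ≤ N := (comap_mono inf_le_left).trans
      (comap_map_eq_self (by rw [QuotientGroup.ker_mk']; exact hAN.le)).le
    have hAM : A < M := lt_of_le_of_ne (QuotientGroup.le_comap_mk' _ _) fun h => h1 (by
      rw [← map_comap_eq_self_of_surjective hπ (N.map π ⊓ _)]
      exact (Subgroup.map_eq_bot_iff _).mpr (by rw [QuotientGroup.ker_mk']; exact h.ge))
    have h2 : M = N := eq_of_le_of_card_ge hMN (by
      rw [hcard _ hAN.le, hcard _ hAM.le, h16, hcls M inferInstance hAM fun x hx y hy =>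
        hN x (hMN hx) y (hMN hy)])
    have h3 := Hup.relIndex_centralizer_eq hχ L N (le_top.trans hA.ge) (le_top.trans hA.ge)
      fun x hx y hy => (comm_mem_iff A x y).mpr ((h2.ge hy).2 _ ⟨x, hx, rfl⟩)
    have h4 : centralizer (L : Set G) = A := le_antisymm ((centralizer_le hNL).trans hC.le)
      (le_centralizer_iff.mp (le_top.trans hA.ge))
    rw [hC, h4] at h3
    have h5 : N = L := eq_of_le_of_card_ge hNL (by
      rw [hcard _ hAN.le, hcard _ (hAN.le.trans hNL), h3])
    rw [← map_comap_eq_self_of_surjective (QuotientGroup.mk'_surjective N) (pCore 2 _)]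
    exact (Subgroup.map_eq_bot_iff _).mpr (by rw [QuotientGroup.ker_mk']; exact h5.ge)
  have hF : Nat.card (fittingSubgroup (G ⧸ N)) ∣ 5 := by
    refine Nat.Coprime.dvd_of_dvd_mul_left (Nat.Coprime.pow_right a ?_)
      (hG ▸ (card_subgroup_dvd_card _).trans (card_quotient_dvd_card N))
    refine ((Nat.Prime.coprime_iff_not_dvd Nat.prime_two).mpr fun h => ?_).symm
    obtain ⟨w, hw⟩ := exists_prime_orderOf_dvd_card' 2 h
    rw [← orderOf_coe] at hw
    have := le_pCore_of_le_fittingSubgroup (p := 2) (zpowers_le.mpr w.2) (IsPGroup.of_card (n := 1)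
      (by rw [Nat.card_zpowers, hw, pow_one])) (mem_zpowers _)
    rw [hO, mem_bot] at this
    simp [this] at hw
  have := Fact.mk Nat.prime_five
  have := isCyclic_of_card_dvd_prime hF
  have h1 : (centralizer (fittingSubgroup (G ⧸ N) : Set (G ⧸ N))).index ≤ 4 := by
    have h2 : (MulAut.conjNormal (H := fittingSubgroup (G ⧸ N))).ker =
        centralizer (fittingSubgroup (G ⧸ N) : Set (G ⧸ N)) := by
      ext x
      rw [MonoidHom.mem_ker, MulEquiv.ext_iff]
      exact ⟨fun h y hy => (mul_inv_eq_iff_eq_mul.mp (congrArg Subtype.val (h ⟨y, hy⟩))).symm,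
        fun h y => Subtype.ext (mul_inv_eq_iff_eq_mul.mpr (h y y.2).symm)⟩
    rw [← h2, index_ker]
    refine (Nat.le_of_dvd Nat.card_pos (card_subgroup_dvd_card _)).trans ?_
    rw [IsCyclic.card_mulAut]
    rcases (Nat.dvd_prime Nat.prime_five).mp hF with h | h <;> rw [h] <;> decide
  have h2 := (card_le_of_le (centralizer_fittingSubgroup_le (G ⧸ N))).trans
    (Nat.le_of_dvd (by norm_num) hF)
  rw [index_eq_card, ← card_mul_index (centralizer (fittingSubgroup (G ⧸ N) : Set (G ⧸ N)))]
  exact Nat.mul_le_mul h2 h1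

theorem exists_abelian_normal {s : ℕ} [Fact s.Prime] (P : Subgroup G) [P.Normal]
    (hP : IsPGroup s P) (h : P ≠ ⊥) :
    ∃ A : Subgroup G, A.Normal ∧ IsMulCommutative A ∧ s ∣ Nat.card A := by
  refine ⟨P ⊓ centralizer (P : Set G), inferInstance,
    le_centralizer_iff_isMulCommutative.mp (inf_le_right.trans (centralizer_le inf_le_left)),
    (hP.to_le inf_le_left).card_eq_or_dvd.resolve_left fun e => ?_⟩
  exact inf_centralizer_ne_bot_of_isPGroup hP hP le_normalizer h (card_eq_one.mp e)

end Group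

universe u

variable {V : Type u} [AddCommGroup V] [Module (ZMod 3) V]
  {G : Type*} [Group G] {ρ : G →* Module.End (ZMod 3) V} [Finite V] [Nontrivial V] [Finite G]

omit [Finite V] [Nontrivial V] in
theorem ppd_five (hn : finrank (ZMod 3) V = 4) : Ppd 3 (finrank (ZMod 3) V) 5 := by
  rw [hn]
  refine ⟨Nat.prime_five, by norm_num, fun i h1 h2 => ?_⟩
  interval_cases i <;> norm_num

theorem card_of_four (hρ : Function.Injective ρ) (hT : Trans ρ) (hG : ¬ 3 ∣ Nat.card G)
    (hn : finrank (ZMod 3) V = 4) (hS : ¬ Sing ρ) : ∃ a, Nat.card G = 2 ^ a * 5 := by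
  have hV := card_sub_one_dvd hT
  rw [card_V (p := 3), hn] at hV
  have := Fact.mk Nat.prime_five
  have h25 : ¬ 5 ^ 2 ∣ Nat.card G := fun h => by
    obtain ⟨P, hP⟩ := Sylow.exists_subgroup_card_pow_prime 5 h
    have hF : Free (ρ.comp P.subtype) := fun g hg v hv => by
      obtain ⟨k, h1, h2⟩ := exists_pow_of_pGroup (IsPGroup.of_card hP) g.2
        fun e => hg (Subtype.ext e)
      have h3 : ∀ v, ρ g v = v → ∀ k : ℕ, ρ (g ^ k) v = v := fun v hv k => by
        induction k with
        | zero => simp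
        | succ k ih => rw [pow_succ, rho_mul_apply, hv, ih]
      rcases irr_of_ppd hρ (ppd_five hn) h1 h2 (LinearMap.ker (ρ (g ^ k) - 1)) (by
        rintro _ ⟨j, rfl⟩ w hw
        rw [LinearMap.mem_ker, LinearMap.sub_apply, sub_eq_zero] at hw ⊢
        rw [← rho_mul_apply, (Commute.refl _).zpow_right j, rho_mul_apply, hw]
        rfl) with h4 | h4
      · exact (Submodule.mem_bot _).mp (h4.le (sub_eq_zero.mpr (h3 v hv k)))
      · exact absurd (hρ ((sub_eq_zero.mp (LinearMap.ker_eq_top.mp h4)).trans ρ.map_one.symm)) h2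
    have := card_dvd_top hF
    rw [hP, card_V (p := 3), hn] at this
    omega
  obtain ⟨τ, hτ⟩ := exists_complex hρ hG
  obtain ⟨a, m, hm, h1⟩ := Nat.exists_eq_two_pow_mul_odd (Nat.card_pos (α := G)).ne'
  obtain ⟨c, rfl⟩ : 5 ∣ m := Nat.Coprime.dvd_of_dvd_mul_left (Nat.Coprime.pow_right a (by norm_num))
    (h1 ▸ (show 5 ∣ 3 ^ 4 - 1 by norm_num).trans hV)
  refine ⟨a, ?_⟩
  by_cases hc : c = 1
  · rw [h1, hc]
  exfalso
  obtain ⟨s, hs, hsc⟩ := Nat.exists_prime_and_dvd hc
  have := Fact.mk hs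
  have hsG : s ∣ Nat.card G := h1 ▸ (hsc.mul_left 5).mul_left _
  have h2 : s ≠ 2 := fun e => (Nat.not_even_iff_odd.mpr hm) (even_iff_two_dvd.mpr (e ▸ hsc.mul_left 5))
  have h3 : s ≠ 3 := fun e => hG (e ▸ hsG)
  have h5 : s ≠ 5 := fun e => h25 (h1 ▸ (Nat.mul_dvd_mul_left 5 (e ▸ hsc)).mul_left _)
  by_cases h7 : s = 7
  · subst h7
    obtain ⟨x, hx⟩ := exists_prime_orderOf_dvd_card' 7 hsG
    have := Hup.finrank_ker_eq (r := 7) (f := ρ x) (d := 5)
      (by rw [← map_pow, ← hx, pow_orderOf_eq_one, map_one])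
      (fun i h1 h2 => by rw [Nat.card_zmod]; interval_cases i <;> norm_num)
      (by rw [Nat.card_zmod]; norm_num) (by omega)
    rw [hρ (this.trans ρ.map_one.symm), orderOf_one] at hx
    omega
  have h9 : 9 < s := by
    by_contra h
    have := hs.two_le
    interval_cases s <;> simp_all (config := {decide := true})
  obtain ⟨P⟩ := Sylow.nonempty (p := s) (G := G)
  have := sylow_normal hτ (by omega) (Or.inl (by omega)) P
  obtain ⟨A, _, hA, h4⟩ := exists_abelian_normal _ P.isPGroup' (P.ne_bot_of_dvd_card hsG)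
  obtain ⟨K, _, _, _, χ, e, σ, -, h6, h8, -, h10, -⟩ :=
    exists_field_red hρ hT A hA fun h => hS ⟨A, inferInstance, hA, h⟩
  rw [hn] at h8
  have : e ≤ 2 := by nlinarith
  have h0 : 0 < e := Nat.pos_of_ne_zero fun h => by rw [h] at h8; omega
  have := Nat.le_of_dvd (by interval_cases e <;> norm_num) (h4.trans h10)
  interval_cases e <;> omega

theorem sing_or_small (hρ : Function.Injective ρ) (hT : Trans ρ) (hG : ¬ 3 ∣ Nat.card G)
    (hn : finrank (ZMod 3) V = 4) :
    Sing ρ ∨ (Nat.card (ConjClasses G) ≤ 64 ∧ Nat.card G ≤ 640) := by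
  refine or_iff_not_imp_left.mpr fun hS => ?_
  have := Fact.mk Nat.prime_five
  obtain ⟨a, ha⟩ := card_of_four hρ hT hG hn hS
  have := Agent.S0144.result 2 5 a 1 Nat.prime_two Nat.prime_five (by rw [ha, pow_one])
  obtain ⟨A, hAn, hAc, hAmax⟩ := exists_max_abelian (G := G)
  obtain ⟨K, _, _, _, χ, e, σ, hK, hd, he, hχ, hAQ, hCe, hσ, h1, h2⟩ :=
    exists_field_red hρ hT A hAc fun h => hS ⟨A, hAn, hAc, h⟩
  rw [hn] at he
  have he2 : e ≤ 2 := by nlinarith
  have he0 : 0 < e := Nat.pos_of_ne_zero fun h => by rw [h] at he; omega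
  have h5 : 5 ∣ Nat.card (centralizer (A : Set G)) := by
    refine (Nat.prime_five.dvd_mul.mp ((centralizer (A : Set G)).card_mul_index ▸ ha ▸ dvd_mul_left 5 _)).resolve_right
      fun h => ?_
    have := Nat.le_of_dvd he0 (h.trans hCe)
    omega
  have hA' : A.subgroupOf (centralizer (A : Set G)) ≤ center (centralizer (A : Set G)) := fun a ha => mem_center_iff.mpr fun g =>
    Subtype.ext (g.2 a ha).symm
  have hd5 : ∀ i, 0 < i → i < finrank K V → ¬ 5 ∣ Nat.card K ^ i - 1 := fun i h3 h4 => by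
    rw [hK, ← pow_mul]
    exact (ppd_five hn).2.2 _ (by positivity) (by rw [hn, ← he]; nlinarith)
  have hK5 : Nat.Coprime 5 (Nat.card K) := by rw [hK]; exact Nat.Coprime.pow_right _ (by norm_num)
  have hZ : ∀ N : Subgroup G, N.Normal → A ≤ N → N ≤ (centralizer (A : Set G)) → centralizer (N : Set G) ⊓ N ≤ A :=
    fun N _ hAN hNC => (hAmax (centralizer (N : Set G) ⊓ N) inferInstance
      (le_centralizer_iff_isMulCommutative.mp (inf_le_left.trans (centralizer_le inf_le_right)))
      (le_inf (le_centralizer_iff.mp hNC) hAN)).le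
  have key : ∀ N : Subgroup G, N.Normal → A < N → N ≤ (centralizer (A : Set G)) → (∀ x ∈ N, ∀ y ∈ N, ⁅x, y⁆ ∈ A) →
      A.relIndex N = 16 ∧ finrank K V = 4 ∧
        ∀ w : (centralizer (A : Set G)), w ^ 5 = 1 → w ≠ 1 → ∀ t : (centralizer (A : Set G)), t.1 ∈ N → w * t = t * w → t.1 ∈ A :=
    fun N _ hAN hNC hcomm => by
      obtain ⟨b, hb⟩ := Hup.exists_relIndex_eq_sq hχ hAN.le hNC hcomm (hZ N ‹_› hAN.le hNC)
      have hb2 : 2 ≤ b := by
        have h5 : A.relIndex N ≠ 0 := FiniteIndex.index_ne_zero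
        have h6 : A.relIndex N ≠ 1 := fun h => hAN.not_ge (relIndex_eq_one.mp h)
        rcases b with _ | _ | b
        · simp_all
        · simp_all
        · omega
      have hcomm' : ∀ x ∈ N.subgroupOf (centralizer (A : Set G)), ∀ y ∈ N.subgroupOf (centralizer (A : Set G)), ⁅x, y⁆ ∈ A.subgroupOf (centralizer (A : Set G)) :=
        fun x hx y hy => hcomm x hx y hy
      have hZ' : centralizer (N.subgroupOf (centralizer (A : Set G)) : Set (centralizer (A : Set G))) ⊓ N.subgroupOf (centralizer (A : Set G)) ≤ A.subgroupOf (centralizer (A : Set G)) :=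
        fun x hx => hZ N ‹_› hAN.le hNC ⟨fun n hn => congrArg Subtype.val (hx.1 ⟨n, hNC hn⟩ hn), hx.2⟩
      have hbd : b ≤ finrank K V := by
        have := Hup.relIndex_le_sq σ (χ.comp (subgroupOfEquivOfLe (hAN.le.trans hNC)).toMonoidHom)
          (hχ.comp (subgroupOfEquivOfLe (hAN.le.trans hNC)).injective)
          (fun a => LinearMap.ext fun v => (h1 _ _).trans (h2 ⟨a, a.2⟩ v))
          (fun x _ a ha => (mem_center_iff.mp (hA' ha) x).symm) hcomm' hZ'
        rw [relIndex_subgroupOf hNC, hb] at this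
        exact Nat.mul_self_le_mul_self_iff.mp this
      have hd4 : finrank K V ≤ 4 := by nlinarith
      have hb5 : Nat.Coprime 5 ((A.subgroupOf (centralizer (A : Set G))).relIndex (N.subgroupOf (centralizer (A : Set G)))) := by
        rw [relIndex_subgroupOf hNC, hb]
        have : b ≤ 4 := by omega
        interval_cases b <;> norm_num
      obtain ⟨P, hP⟩ := Sylow.exists_subgroup_card_pow_prime 5 (n := 1) (G := (centralizer (A : Set G))) (by rwa [pow_one])
      have h11 := Hup.card_dvd_relIndex (N := N.subgroupOf _) σ hσ hA' (comap_mono hAN.le) hcomm' hZ' hd5 hK5 hb5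
        (IsPGroup.of_card hP)
      rw [hP, relIndex_subgroupOf hNC, hb] at h11
      have hb4 : b = 4 := by
        have : b ≤ 4 := by omega
        interval_cases b <;> omega
      refine ⟨by rw [hb, hb4], by omega, fun w hw hw1 t ht hwt =>
        Hup.mem_of_commutator_mem σ hσ hA' hcomm' hZ' hd5 hK5 hb5 hw hw1 ht ?_⟩
      rw [commutatorElement_eq_one_iff_mul_comm.mpr hwt]
      exact one_mem _
  have hAC : A < (centralizer (A : Set G)) := lt_of_le_of_ne (le_centralizer A) fun h => by
    rw [← h] at h5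
    have := h5.trans hAQ
    interval_cases e <;> omega
  obtain ⟨N, hN, hAN, hNC, hcomm⟩ := exists_class_two A (centralizer (A : Set G)) hAC
  obtain ⟨h16, hd4, hw⟩ := key N hN hAN hNC hcomm
  obtain rfl : e = 1 := by rw [hd4] at he; omega
  rw [Nat.dvd_one, index_eq_one] at hCe
  have h20 := index_le_twenty hχ hCe hAQ hAN hcomm (hZ N hN hAN.le hNC)
    (fun M hM h3 h4 => (key M hM h3 (le_top.trans hCe.ge) h4).1) ha
  have hA2 := Nat.le_of_dvd (by norm_num) hAQ
  have hNc : Nat.card N = 16 * Nat.card A := by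
    rw [← (A.subgroupOf N).index_mul_card, Nat.card_congr (subgroupOfEquivOfLe hAN.le).toEquiv,
      ← h16]; rfl
  have hGN := N.card_mul_index
  have h6 : 5 ∣ Nat.card (G ⧸ N) := by
    refine (Nat.prime_five.dvd_mul.mp (hGN ▸ ha ▸ dvd_mul_left 5 _)).resolve_left fun h => ?_
    have : 0 < Nat.card A := Nat.card_pos
    omega
  obtain ⟨X, hX⟩ := Sylow.exists_subgroup_card_pow_prime 5 (n := 1) (G := G ⧸ N) (by rwa [pow_one])
  let M := X.comap (QuotientGroup.mk' N)
  have hNM : N ≤ M := QuotientGroup.le_comap_mk' _ _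
  have hM : Nat.card M = 80 * Nat.card A :=
    (QuotientGroup.card_preimage_mk N X).trans (by rw [hNc, SetLike.coe_sort_coe, hX]; ring)
  have h7 := card_conjClasses_le_eight_mul (A.subgroupOf M) (N.subgroupOf M)
    (Nat.card_congr (subgroupOfEquivOfLe (hAN.le.trans hNM)).toEquiv)
    ((Nat.card_congr (subgroupOfEquivOfLe hNM).toEquiv).trans hNc) hM hA2
    fun w h3 h4 t ht h8 => hw ⟨w, hCe.ge trivial⟩ (Subtype.ext (congrArg (fun u : M => (u : G)) h3))
      (fun e => h4 (Subtype.ext (congrArg (fun u : (centralizer (A : Set G)) => (u : G)) e))) ⟨t, hCe.ge trivial⟩ ht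
      (Subtype.ext (congrArg (fun u : M => (u : G)) h8))
  have h8 := (Agent.S4200.result M).2.1
  have h9 := M.card_mul_index
  have : 0 < Nat.card A := Nat.card_pos
  have h10 : M.index ≤ 4 := by nlinarith
  exact ⟨h8.trans (Nat.mul_le_mul h10 (show _ ≤ 16 by omega)),
    hGN ▸ Nat.mul_le_mul (show _ ≤ 32 by omega) h20⟩

end CL.KT
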