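import Mathlib
import Cfsg.Agent.BLK.KT.E81
import Cfsg.Agent.FGS.Acd3
import Cfsg.Agent.S0205
import Cfsg.Agent.S4198

/-!
The classification of the transitive linear groups of order prime to the characteristic, and their
class numbers.
-/

set_option autoImplicit false

open Subgroup Cfsg Module

namespace CL.KT

open CL.RegLin

universe u

variable {p : ℕ} [hp : Fact p.Prime] {V : Type u} [AddCommGroup V] [Module (ZMod p) V]
  {G : Type*} [Group G] {ρ : G →* Module.End (ZMod p) V} [Finite V] [Nontrivial V] [Finite G]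

theorem classify (hρ : Function.Injective ρ) (hT : Trans ρ) (hG : ¬ p ∣ Nat.card G) :
    Sing ρ ∨ (finrank (ZMod p) V = 2 ∧ ∃ (Z : Subgroup G) (_ : Z.Normal),
      (∀ z ∈ Z, ∃ c : ZMod p, ∀ w, ρ z w = c • w) ∧ Nat.card Z ∣ p - 1 ∧ Dk.IsPoly (G ⧸ Z)) ∨
      (p = 3 ∧ finrank (ZMod p) V = 4) := by
  have h0 : 0 < finrank (ZMod p) V := finrank_pos
  by_cases h1 : finrank (ZMod p) V = 1
  · refine Or.inl ⟨⊤, inferInstance, ⟨⟨fun a b => Subtype.ext (hρ ?_)⟩⟩, fun W _ => ?_⟩
    · obtain ⟨c, hc, -⟩ := LinearMap.existsUnique_eq_smul_id_of_finrank_eq_one h1 (ρ a)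
      rw [coe_mul, coe_mul, map_mul, map_mul, hc]
      ext v
      simp
    · have := (isSimpleModule_iff_finrank_eq_one (R := ZMod p) (M := V)).mpr h1
      exact eq_bot_or_eq_top W
  by_cases h2 : finrank (ZMod p) V = 2
  · exact (sing_or_poly hρ hT hG h2).imp_right fun h => Or.inl ⟨h2, h⟩
  by_cases h3 : p = 2
  · subst h3
    have := Agent.S0205.result (G := G) (Nat.not_even_iff_odd.mp (mt even_iff_two_dvd.mp hG))
    refine Or.inl ((huppert hρ hT).resolve_right fun h => ?_)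
    have h4 : 2 ∣ Nat.card V := by rw [card_V (p := 2)]; exact dvd_pow_self _ h0.ne'
    simp only [Set.mem_insert_iff, Set.mem_singleton_iff] at h
    omega
  by_cases h4 : p = 3 ∧ finrank (ZMod p) V = 4
  · exact Or.inr (Or.inr h4)
  by_cases h6 : finrank (ZMod p) V = 6 ∧ (p = 3 ∨ p = 5)
  · exact Or.inl (sing_of_six hρ hT hG h6.1 h6.2)
  obtain ⟨r, hr, h7, h8, h9⟩ := Agent.S3430.result p (finrank (ZMod p) V) hp.out.two_le (by omega)
    (fun h => h2 h.1) (fun h => h3 h.1) (by omega) (by omega)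
  exact Or.inl (sing_of_large hρ hT hG (by omega) ⟨hr, h7, h8⟩ h9)

omit [Finite G] in
theorem Sing.cocycle (hρ : Function.Injective ρ) (hT : Trans ρ) (h : Sing ρ) :
    ∃ (F : Type) (_ : Field F) (_ : Finite F) (a : G → F) (φ : G →* (F ≃+* F)),
      Nat.card F = Nat.card V ∧ (∀ g h, a (g * h) = a g * φ g (a h)) ∧ (∀ g, a g ≠ 0) ∧
      (∀ g, a g = 1 → φ g = 1 → g = 1) ∧ ∀ c, c ≠ 0 → ∃ g, a g = c := by
  obtain ⟨A, _, _, h3⟩ := h
  obtain ⟨F, _, _, e, h⟩ := semilinear (ρ := ρ) A (fun m hm n hn => by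
    rw [← map_mul, ← map_mul, le_centralizer A hn m hm]) h3
  choose a σ h using h
  have h1 : ∀ g c, e (ρ g (e.symm c)) = a g * σ g c := fun g c => by rw [h, e.apply_symm_apply]
  have he : e.symm 1 ≠ 0 := by simp
  have ha0 : ∀ g, a g ≠ 0 := fun g h0 => rho_ne_zero (ρ := ρ) g he (e.injective (by simp [h1, h0]))
  have h2 : ∀ g g' c, a (g * g') * σ (g * g') c = a g * σ g (a g' * σ g' c) := fun g g' c => by
    rw [← h1, rho_mul_apply, h, h1]
  have h4 : ∀ g g', a (g * g') = a g * σ g (a g') := fun g g' => by simpa using h2 g g' 1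
  refine ⟨F, inferInstance, inferInstance, a, MonoidHom.mk' σ fun g g' => RingEquiv.ext fun c => ?_,
    (Nat.card_congr e.toEquiv).symm, h4, ha0, fun g h5 h6 => hρ (LinearMap.ext fun v => ?_),
    fun c hc => ?_⟩
  · have := h2 g g' c
    rw [map_mul, ← mul_assoc, ← h4] at this
    exact mul_left_cancel₀ (ha0 _) this
  · have h6' : σ g = 1 := h6
    apply e.injective
    simp [h, h5, h6']
  · obtain ⟨g, hg⟩ := hT _ (e.symm c) he (by simpa using hc)
    exact ⟨g, by simpa [hg] using (h1 g 1).symm⟩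

omit [Finite G] in
theorem card_conjClasses_equiv {X : Type*} [Group X] (e : G ≃* X) :
    Nat.card (ConjClasses G) = Nat.card (ConjClasses X) :=
  Nat.card_congr (Quotient.congr e.toEquiv fun a b =>
    ⟨fun h => e.toMonoidHom.map_isConj h, fun h => by
      have : IsConj (e.symm (e a)) (e.symm (e b)) := e.symm.toMonoidHom.map_isConj h
      rwa [e.symm_apply_apply, e.symm_apply_apply] at this⟩)

theorem card_conjClasses_le_mul (Z : Subgroup G) [Z.Normal] :
    Nat.card (ConjClasses G) ≤ Nat.card (ConjClasses (G ⧸ Z)) * Nat.card Z := by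
  rw [← Nat.card_prod]
  refine Nat.card_le_card_of_surjective
    (fun x : ConjClasses (G ⧸ Z) × Z => ConjClasses.mk (x.1.out.out * x.2)) fun c => ?_
  obtain ⟨g, rfl⟩ := ConjClasses.mk_surjective c
  obtain ⟨y, hy⟩ := isConj_iff.mp (ConjClasses.mk_eq_mk_iff_isConj.mp
    (Quotient.out_eq (ConjClasses.mk (g : G ⧸ Z))).symm)
  obtain ⟨y, rfl⟩ := QuotientGroup.mk_surjective y
  refine ⟨⟨ConjClasses.mk g, ⟨_, QuotientGroup.eq.mp ((QuotientGroup.out_eq' _).trans hy.symm)⟩⟩, ?_⟩
  simp only [mul_inv_cancel_left]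
  exact ConjClasses.mk_eq_mk_iff_isConj.mpr (isConj_iff.mpr ⟨y, rfl⟩).symm

theorem card_conjClasses_alt_four : Nat.card (ConjClasses (alternatingGroup (Fin 4))) = 4 := by
  have := card_comm_eq_card_conjClasses_mul_card (alternatingGroup (Fin 4))
  have h : Nat.card {p : alternatingGroup (Fin 4) × alternatingGroup (Fin 4) //
      p.1 * p.2 = p.2 * p.1} = 48 := by
    rw [Nat.card_eq_fintype_card]
    decide +kernel
  have := h.symm.trans this
  rw [Dk.card_alt_four] at this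
  omega

theorem card_poly' {X : Type*} [Group X] (h : Dk.IsPoly X) :
    (Nat.card X = 12 ∧ Nat.card (ConjClasses X) ≤ 5) ∨
      (Nat.card X = 24 ∧ Nat.card (ConjClasses X) ≤ 5) ∨
      (Nat.card X = 60 ∧ Nat.card (ConjClasses X) ≤ 7) := by
  rcases h with ⟨⟨e⟩⟩ | ⟨⟨e⟩⟩ | ⟨⟨e⟩⟩ <;> rw [Nat.card_congr e.toEquiv, card_conjClasses_equiv e]
  · exact Or.inl ⟨Dk.card_alt_four, by rw [card_conjClasses_alt_four]; omega⟩
  · exact Or.inr (Or.inl ⟨Dk.card_sym_four, Acd.card_conjClasses_perm_four.le⟩)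
  · have := Agent.S4198.result 5 le_rfl
    exact Or.inr (Or.inr ⟨Dk.card_alt_five, by omega⟩)

theorem good (hρ : Function.Injective ρ) (hT : Trans ρ) (hG : ¬ p ∣ Nat.card G) :
    Good G (Nat.card V) := by
  have hS : Sing ρ → Good G (Nat.card V) := fun h => by
    obtain ⟨F, _, _, a, φ, hF, h1, h2, h3, -⟩ := h.cocycle hρ hT
    rw [card_V (p := p) (V := V)] at hF ⊢
    exact good_of_cocycle hp.out hF hG a φ h1 h2 h3
  rcases classify hρ hT hG with h | ⟨hn, Z, _, -, hZ, h⟩ | ⟨rfl, hn⟩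
  · exact hS h
  · intro m hm
    suffices h : Nat.card (ConjClasses G) + m < Nat.card V from ⟨h.le, fun e => absurd e h.ne⟩
    have h1 := card_conjClasses_le_mul Z
    have h2 := card_eq_card_quotient_mul_card_subgroup Z
    have h3 : ¬ p ∣ Nat.card (G ⧸ Z) := fun h => hG (h.trans (card_quotient_dvd_card Z))
    rw [card_V (p := p) (V := V), hn] at hm ⊢
    have h4 := hp.out.two_le
    have h5 := Nat.le_of_dvd (by omega) hZ
    rw [show p ^ 2 - 1 = (p + 1) * (p - 1) by simpa using Nat.sq_sub_sq p 1] at hm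
    have h6 : (p + 1) * m ≤ Nat.card (G ⧸ Z) := by
      refine Nat.le_of_mul_le_mul_right ?_ (show 0 < p - 1 by omega)
      rw [mul_right_comm, ← hm, h2]
      exact Nat.mul_le_mul_left _ h5
    have h7 : p + 1 ∣ Nat.card (G ⧸ Z) := by
      refine Nat.dvd_of_mul_dvd_mul_right (show 0 < p - 1 by omega) ?_
      exact (Dvd.intro _ hm.symm).trans (h2 ▸ Nat.mul_dvd_mul_left _ hZ)
    have h8 : p ≠ 4 := fun e => by have := hp.out; rw [e] at this; norm_num at this
    obtain ⟨q, hq⟩ : ∃ q, p = q + 1 := ⟨p - 1, by omega⟩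
    rw [hq] at h5 ⊢
    rw [Nat.add_sub_cancel] at h5
    rcases card_poly' h with ⟨e, hk⟩ | ⟨e, hk⟩ | ⟨e, hk⟩ <;> rw [e, hq] at h3 h6 h7 <;>
      have h9 := h1.trans (Nat.mul_le_mul hk h5)
    · have : 4 ≤ q := by by_contra h; interval_cases q <;> omega
      nlinarith
    · have : 4 ≤ q := by by_contra h; interval_cases q <;> omega
      nlinarith
    · have : 7 ≤ q := by by_contra h; interval_cases q <;> omega
      nlinarith
  · rcases sing_or_small hρ hT hG hn with h | ⟨h1, h2⟩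
    · exact hS h
    intro m hm
    rw [card_V (p := 3) (V := V), hn] at hm ⊢
    omega

end CL.KT
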