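import Mathlib
import Cfsg.Agent.BLK.KT.Main
import Cfsg.Agent.PERM.RegLin2
import Cfsg.Agent.S4200

/-!
Lower bounds for the class number of a transitive linear group of order prime to the
characteristic.
-/

set_option autoImplicit false

open Subgroup Cfsg Module

namespace CL.KT

open CL.RegLin
open scoped MatrixGroups

theorem card_le_two_of_classes {G : Type*} [Group G] [Finite G]
    (h : Nat.card (ConjClasses G) ≤ 2) : Nat.card G ≤ 2 := by
  by_contra h1
  have : Nontrivial G := Finite.one_lt_card_iff_nontrivial.mp (by omega)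
  obtain ⟨x, hx⟩ := exists_ne (1 : G)
  have h2 : ∀ y : G, y ≠ 1 → IsConj x y := fun y hy => by
    by_contra h3
    have := Fintype.ofFinite (ConjClasses G)
    have h4 : 2 < Fintype.card (ConjClasses G) := Fintype.two_lt_card_iff.mpr
      ⟨ConjClasses.mk 1, ConjClasses.mk x, ConjClasses.mk y,
        fun e => hx (isConj_one_right.mp (ConjClasses.mk_eq_mk_iff_isConj.mp e)),
        fun e => hy (isConj_one_right.mp (ConjClasses.mk_eq_mk_iff_isConj.mp e)),
        fun e => h3 (ConjClasses.mk_eq_mk_iff_isConj.mp e)⟩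
    rw [Nat.card_eq_fintype_card] at h
    omega
  have h3 : (ConjClasses.mk x).carrier = {1}ᶜ := Set.ext fun y => by
    rw [ConjClasses.mem_carrier_iff_mk_eq, ConjClasses.mk_eq_mk_iff_isConj]
    exact ⟨fun e e' => hx (isConj_one_right.mp (e' ▸ e)), fun e => (h2 y e).symm⟩
  have h4 : (centralizer {x}).index = Nat.card G - 1 := by
    rw [← CL.ncard_carrier_eq_index, h3, Set.ncard_compl, Set.ncard_singleton]
  have h5 := (centralizer ({x} : Set G)).index_dvd_card
  rw [h4] at h5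
  have h6 := (Nat.dvd_sub h5 (dvd_refl _))
  rw [show Nat.card G - (Nat.card G - 1) = 1 by omega] at h6
  have := Nat.le_of_dvd one_pos h6
  omega

theorem sum_le_classes {G X : Type*} [Group G] [Finite G] [Group X] (f : G →* X) (Z : Subgroup G)
    (hZ : ∀ g, f g = 1 ↔ g ∈ Z) (hc : Z ≤ center G) {k : ℕ} (x : Fin k → X) (o : Fin k → ℕ)
    (hx : ∀ i, x i ∈ f.range) (ho : ∀ i, x i ^ o i = 1)
    (hn : ∀ i j c, c * x i = x j * c → i = j) :
    ∑ i, (if (o i).Coprime (Nat.card Z) then Nat.card Z else 1) ≤ Nat.card (ConjClasses G) := by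
  classical
  choose y hy using hx
  let T : Fin k → Subgroup G := fun i => if (o i).Coprime (Nat.card Z) then Z else ⊥
  have hT : ∀ i, T i ≤ Z := fun i => by
    dsimp only [T]
    split_ifs <;> simp
  have h1 : ∑ i, (if (o i).Coprime (Nat.card Z) then Nat.card Z else 1) =
      Nat.card (Σ i, T i) := by
    rw [Nat.card_sigma]
    refine Finset.sum_congr rfl fun i _ => ?_
    dsimp only [T]
    split_ifs <;> simp
  rw [h1]
  refine Nat.card_le_card_of_injective (fun s => ConjClasses.mk (y s.1 * s.2)) ?_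
  rintro ⟨i, a, ha⟩ ⟨j, b, hb⟩ e
  obtain ⟨c, e⟩ := isConj_iff.mp (ConjClasses.mk_eq_mk_iff_isConj.mp e)
  dsimp only at e
  obtain rfl : i = j := hn i j (f c) (by
    have := congrArg f e
    rw [map_mul, map_mul, map_mul, map_mul, hy, hy, (hZ a).mpr (hT i ha), (hZ b).mpr (hT j hb),
      mul_one, mul_one, map_inv] at this
    rw [← this, inv_mul_cancel_right])
  suffices h : a = b by subst h; rfl
  by_cases h : (o i).Coprime (Nat.card Z)
  · have h2 : ∀ a ∈ Z, (y i * a) ^ o i = y i ^ o i * a ^ o i := fun a ha =>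
      Commute.mul_pow (mem_center_iff.mp (hc ha) _) _
    have h3 : y i ^ o i ∈ Z := (hZ _).mp (by rw [map_pow, hy, ho])
    have h4 := congrArg (· ^ o i) e
    simp only [conj_pow] at h4
    rw [h2 a (hT i ha), h2 b (hT i hb), mem_center_iff.mp (hc (Z.mul_mem h3 (Z.pow_mem (hT i ha) _))),
      mul_inv_cancel_right, mul_right_inj] at h4
    have h5 := (powCoprime (G := Z) h.symm).injective (a₁ := ⟨a, hT i ha⟩) (a₂ := ⟨b, hT i hb⟩)
      (Subtype.ext h4)
    exact congrArg Subtype.val h5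
  · simp only [T, h, if_false, mem_bot] at ha hb
    rw [ha, hb]

open Equiv in
theorem poly_classes {G : Type*} [Group G] [Finite G] (Z : Subgroup G) [Z.Normal]
    (hc : Z ≤ center G) (h : Dk.IsPoly (G ⧸ Z)) :
    let c := fun o : ℕ => if o.Coprime (Nat.card Z) then Nat.card Z else 1
    (Nat.card (G ⧸ Z) = 12 ∧ c 1 + c 2 + c 3 ≤ Nat.card (ConjClasses G)) ∨
    (Nat.card (G ⧸ Z) = 24 ∧ c 1 + c 2 + c 2 + c 3 + c 4 ≤ Nat.card (ConjClasses G)) ∨
    (Nat.card (G ⧸ Z) = 60 ∧ c 1 + c 3 + c 5 ≤ Nat.card (ConjClasses G) ∧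
      ¬ Group.IsSolvable G) := by
  intro c
  have key : ∀ {n : ℕ} (A : Subgroup (Perm (Fin n))) (e : G ⧸ Z ≃* A) {k : ℕ}
      (x : Fin k → Perm (Fin n)) (o : Fin k → ℕ), (∀ i, x i ∈ A) → (∀ i, x i ^ o i = 1) →
      (∀ i j c, c * x i = x j * c → i = j) → ∑ i, c (o i) ≤ Nat.card (ConjClasses G) :=
    fun A e k x o hx ho hn => sum_le_classes
      (A.subtype.comp (e.toMonoidHom.comp (QuotientGroup.mk' Z))) Z (fun g => by simp) hc x o
      (fun i => by
        obtain ⟨g, hg⟩ := QuotientGroup.mk_surjective (e.symm ⟨x i, hx i⟩)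
        exact ⟨g, by simp [hg]⟩) ho hn
  rcases h with ⟨⟨e⟩⟩ | ⟨⟨e⟩⟩ | ⟨⟨e⟩⟩
  · refine Or.inl ⟨(Nat.card_congr e.toEquiv).trans Dk.card_alt_four, ?_⟩
    simpa [Fin.sum_univ_succ, add_assoc] using key _ e
      ![1, swap 0 1 * swap 2 3, swap 0 1 * swap 1 2] ![1, 2, 3]
      (by simp only [Perm.mem_alternatingGroup]; decide) (by decide) (by decide +kernel)
  · refine Or.inr (Or.inl ⟨(Nat.card_congr e.toEquiv).trans Dk.card_sym_four, ?_⟩)
    simpa [Fin.sum_univ_succ, add_assoc] using key ⊤ (e.trans topEquiv.symm)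
      ![1, swap 0 1, swap 0 1 * swap 2 3, swap 0 1 * swap 1 2, swap 0 1 * swap 1 2 * swap 2 3]
      ![1, 2, 2, 3, 4] (fun _ => trivial) (by decide) (by decide +kernel)
  · refine Or.inr (Or.inr ⟨(Nat.card_congr e.toEquiv).trans Dk.card_alt_five, ?_, fun hs => ?_⟩)
    · simpa [Fin.sum_univ_succ, add_assoc] using key _ e
        ![1, swap 0 1 * swap 1 2, swap 0 1 * swap 1 2 * swap 2 3 * swap 3 4] ![1, 3, 5]
        (by simp only [Perm.mem_alternatingGroup]; decide) (by decide) (by decide +kernel)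
    · have : Group.IsSolvable (alternatingGroup (Fin 5)) :=
        Group.isSolvable_of_surjective (f := e.toMonoidHom.comp (QuotientGroup.mk' Z))
          (e.surjective.comp (QuotientGroup.mk'_surjective Z))
      have h1 := IsSimpleGroup.comm_iff_isSolvable.mpr this
        ⟨swap 0 1 * swap 1 2, by simp only [Perm.mem_alternatingGroup]; decide⟩
        ⟨swap 1 2 * swap 2 3, by simp only [Perm.mem_alternatingGroup]; decide⟩
      exact absurd (congrArg Subtype.val h1) (by decide)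

universe u

variable {p : ℕ} [hp : Fact p.Prime] {V : Type u} [AddCommGroup V] [Module (ZMod p) V]
  {G : Type*} [Group G] {ρ : G →* Module.End (ZMod p) V} [Finite V] [Nontrivial V] [Finite G]

/-- the order of a transitive group is `|V| - 1` times the order of a vector stabiliser -/
theorem card_eq_mul (hT : Trans ρ) : ∃ m, Nat.card G = (Nat.card V - 1) * m ∧
    (m = 1 → Free ρ) := by
  obtain ⟨m, hm⟩ := card_sub_one_dvd hT
  refine ⟨m, hm, fun e g hg v hgv => ?_⟩
  by_contra hv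
  let _ : MulAction G V := MulAction.compHom V ρ
  have h1 : MulAction.orbit G v = {0}ᶜ := by
    ext w
    exact ⟨by rintro ⟨g, rfl⟩; exact rho_ne_zero g hv, fun hw => hT v w hv hw⟩
  have h2 := MulAction.index_stabilizer G v
  rw [h1, Set.ncard_compl _, Set.ncard_singleton] at h2
  rw [e, mul_one, ← h2, eq_comm] at hm
  have h3 := (MulAction.stabilizer G v).card_mul_index
  rw [hm, Nat.mul_eq_right Nat.card_pos.ne', card_eq_one] at h3
  exact hg (mem_bot.mp (h3 ▸ (hgv : g ∈ MulAction.stabilizer G v)))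

theorem sing_low (hρ : Function.Injective ρ) (hT : Trans ρ) (h : Sing ρ) :
    Nat.card V - 1 ≤ Nat.card (ConjClasses G) * finrank (ZMod p) V ^ 2 := by
  obtain ⟨F, _, _, a, φ, hF, ha, ha0, hinj, -⟩ := h.cocycle hρ hT
  rw [card_V (p := p) (V := V)] at hF
  let A := φ.ker
  have hm : A.index ≤ finrank (ZMod p) V := by
    have h1 := card_fixed_pow φ.range
    rw [← index_ker, hF] at h1
    have h2 : 1 < Nat.card (FixedPoints.subfield φ.range F) := Finite.one_lt_card
    obtain ⟨j, -, hj⟩ := (Nat.dvd_prime_pow hp.out).mp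
      (h1 ▸ dvd_pow_self _ (FiniteIndex.index_ne_zero (H := A)))
    rw [hj, ← pow_mul] at h1
    rw [← Nat.pow_right_injective hp.out.two_le h1]
    exact Nat.le_mul_of_pos_left _ (Nat.pos_of_ne_zero fun h => by simp [hj, h] at h2)
  let α : A →* Fˣ := MonoidHom.mk' (fun g => Units.mk0 (a g) (ha0 g)) fun g g' => Units.ext (by
    have : φ g = 1 := g.2
    simp [ha, this])
  have hα : Function.Injective α := (injective_iff_map_eq_one α).mpr fun g hg =>
    Subtype.ext (hinj g (congrArg Units.val hg) g.2)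
  have h1 : Nat.card A ≤ Nat.card (ConjClasses A) :=
    Nat.card_le_card_of_injective ConjClasses.mk fun x y e => hα (by
      obtain ⟨c, rfl⟩ := isConj_iff.mp (ConjClasses.mk_eq_mk_iff_isConj.mp e)
      rw [map_mul, map_mul, map_inv, mul_inv_cancel_comm])
  have h2 := h1.trans (Agent.S4200.result A).1
  obtain ⟨m, h3, -⟩ := card_eq_mul hT
  have h4 : Nat.card V - 1 ≤ Nat.card G := Nat.le_of_dvd Nat.card_pos ⟨m, h3⟩
  rw [← A.card_mul_index] at h4
  calc _ ≤ _ := h4
    _ ≤ finrank (ZMod p) V * Nat.card (ConjClasses G) * finrank (ZMod p) V :=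
      Nat.mul_le_mul (h2.trans (Nat.mul_le_mul_right _ hm)) hm
    _ = _ := by ring

theorem arith_low {p n : ℕ} (hp : 5 ≤ p) (hn : 2 ≤ n) : (p - 1) * n ^ 2 < p ^ n - 1 := by
  obtain ⟨q, rfl⟩ := Nat.exists_eq_add_of_le' (show 1 ≤ p by omega)
  rw [Nat.add_sub_cancel, Nat.lt_sub_iff_add_lt]
  induction n, hn using Nat.le_induction with
  | base => nlinarith
  | succ n hn ih =>
    rw [pow_succ (q + 1)]
    have h1 : (n + 1) ^ 2 ≤ n ^ 2 * (q + 1) := by nlinarith
    nlinarith [Nat.mul_le_mul_left q h1]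

theorem low (hρ : Function.Injective ρ) (hT : Trans ρ) (hG : ¬ p ∣ Nat.card G) :
    (finrank (ZMod p) V = 1 ∧ Nat.card G = p - 1 ∧ p - 1 ≤ Nat.card (ConjClasses G)) ∨
      p ≤ Nat.card (ConjClasses G) ∨
      (p = 11 ∧ Nat.card V = 121 ∧ Free ρ ∧ Nonempty (G ≃* SL(2, ZMod 5))) := by
  have h0 : 0 < finrank (ZMod p) V := finrank_pos
  have hp2 := hp.out.two_le
  obtain ⟨m, hm, hF⟩ := card_eq_mul hT
  have hm0 : m ≠ 0 := fun e => Nat.card_pos.ne' (by rw [hm, e, mul_zero])
  have hV := card_V (p := p) (V := V)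
  by_cases h1 : finrank (ZMod p) V = 1
  · have hc : ∀ a : G, ∃ c : ZMod p, ρ a = c • LinearMap.id := fun a =>
      (LinearMap.existsUnique_eq_smul_id_of_finrank_eq_one h1 (ρ a)).exists
    have h2 : Nat.card G = p - 1 := by
      rw [card_eq hT fun g hg v hv => ?_, hV, h1, pow_one]
      obtain ⟨c, hc⟩ := hc g
      by_contra h
      rw [hc, LinearMap.smul_apply, LinearMap.id_apply, ← sub_eq_zero] at hv
      nth_rewrite 2 [← one_smul (ZMod p) v] at hv
      rw [← sub_smul, smul_eq_zero, sub_eq_zero] at hv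
      exact hg (hρ (by rw [hc, hv.resolve_right h, one_smul, map_one]; rfl))
    refine Or.inl ⟨h1, h2, h2 ▸ Nat.card_le_card_of_injective ConjClasses.mk fun x y e => hρ ?_⟩
    obtain ⟨g, rfl⟩ := isConj_iff.mp (ConjClasses.mk_eq_mk_iff_isConj.mp e)
    obtain ⟨c, hc⟩ := hc x
    ext v
    simp [hc]
  right
  by_cases h3 : p ≤ 3
  · left
    by_contra h4
    have h5 := card_le_two_of_classes (G := G) (by omega)
    have h6 : p ^ 2 ≤ p ^ finrank (ZMod p) V := Nat.pow_le_pow_right (by omega) (by omega)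
    have h7 : Nat.card V - 1 ≤ Nat.card G := Nat.le_of_dvd Nat.card_pos ⟨m, hm⟩
    have : 2 ^ 2 ≤ p ^ 2 := Nat.pow_le_pow_left hp2 2
    omega
  have h5 : 5 ≤ p := by
    have : p ≠ 4 := fun e => by have := hp.out; rw [e] at this; norm_num at this
    omega
  rcases classify hρ hT hG with h | ⟨hn, Z, _, hs, hZ, h⟩ | ⟨rfl, -⟩
  · left
    have h6 := sing_low hρ hT h
    have h7 := arith_low h5 (show 2 ≤ finrank (ZMod p) V by omega)
    rw [hV] at h6
    have := Nat.lt_of_mul_lt_mul_right (h7.trans_le h6)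
    omega
  · have hc : Z ≤ center G := fun z hz => mem_center_iff.mpr fun g => hρ (by
      obtain ⟨c, hc⟩ := hs z hz
      ext v
      simp [hc])
    have h2 := card_eq_card_quotient_mul_card_subgroup Z
    have h6 : ¬ p ∣ Nat.card (G ⧸ Z) := fun h => hG (h.trans (card_quotient_dvd_card Z))
    obtain ⟨d, hd⟩ := hZ
    have hz0 : 0 < Nat.card Z := Nat.card_pos
    rw [hV, hn, show p ^ 2 - 1 = (p + 1) * (p - 1) by simpa using Nat.sq_sub_sq p 1, hd, h2] at hm
    have h7 : Nat.card (G ⧸ Z) = (p + 1) * (d * m) :=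
      Nat.eq_of_mul_eq_mul_right hz0 (by rw [hm]; ring)
    have h8 := poly_classes Z hc h
    have hns := fun (e : m = 1) => nonsolvable hT (hF e)
    rw [hV, hn] at hns ⊢
    have hp' := hp.out
    have hd0 : 0 < d := Nat.pos_of_ne_zero fun e => by rw [e] at hd; omega
    have hz : Nat.card Z = (p - 1) / d := by rw [hd, Nat.mul_div_cancel _ hd0]
    have hdp : d ∣ p - 1 := Dvd.intro_left _ hd.symm
    rw [hz] at h8
    clear hm hd h2 hz hz0
    by_cases h9 : ¬ Group.IsSolvable G ∧ m = 1 ∧ p ≤ 19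
    · have : p ^ 2 ≤ 19 ^ 2 := Nat.pow_le_pow_left h9.2.2 2
      rcases hns h9.2.1 h9.1 with ⟨e, h⟩ | ⟨e, -⟩ | ⟨e, -⟩
      · exact Or.inr ⟨Nat.pow_left_injective two_ne_zero e, e, hF h9.2.1, h⟩
      all_goals omega
    left
    clear hns hV h0 h1 hn hG
    rcases h8 with ⟨e, h8⟩ | ⟨e, h8⟩ | ⟨e, h8, h9'⟩ <;> rw [e] at h6 h7
    all_goals
      have h10 : p + 1 ≤ _ := Nat.le_of_dvd (by norm_num) (Dvd.intro _ h7.symm)
      have h11 : 6 * d ≤ _ := h7 ▸ Nat.mul_le_mul (show 6 ≤ p + 1 by omega)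
        (Nat.le_mul_of_pos_right d (Nat.pos_of_ne_zero hm0))
      have h12 : (p + 1) * d ∣ _ := ⟨m, h7.trans (mul_assoc _ _ _).symm⟩
      have h13 : p < 60 := by omega
      have h14 : d ≤ 10 := by omega
      interval_cases p <;> interval_cases d <;> first
        | omega
        | (norm_num at hp'; done)
        | (norm_num at h8; omega)
        | exact (h9 ⟨h9', by omega, by omega⟩).elim
  · omega

end CL.KT
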