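import Mathlib
import Cfsg.Agent.BLK.KT.Low
import Cfsg.Agent.SOLV.PSolvable
import Cfsg.Agent.FGS.ClassSizeReg
import Cfsg.Agent.ODD.AbelemRep
import Cfsg.Agent.SOLV.Primitive

/-!
Classes of `p`-regular elements in groups whose nonidentity `p`-elements are conjugate.
-/

set_option autoImplicit false

open Subgroup Cfsg Module

namespace CL.KT

open scoped MatrixGroups commutatorElement

theorem card_add_le {α β : Type*} [Finite α] {π : α → β} (hπ : Function.Surjective π) (S : Set α)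
    (h : ∀ s ∈ S, ∃ a ∉ S, π a = π s) : Nat.card β + S.ncard ≤ Nat.card α := by
  rw [← Set.ncard_add_ncard_compl S, add_comm]
  refine Nat.add_le_add_left (Nat.card_le_card_of_surjective (fun a : ↥Sᶜ => π a) fun b => ?_) _
  obtain ⟨s, rfl⟩ := hπ b
  by_cases hs : s ∈ S
  · obtain ⟨a, ha, e⟩ := h s hs
    exact ⟨⟨a, ha⟩, e⟩
  · exact ⟨⟨s, hs⟩, rfl⟩

/-- the classes of `p`-regular elements -/
abbrev Reg (p : ℕ) (G : Type*) [Group G] :=
  {c : ConjClasses G // ∃ g : G, ConjClasses.mk g = c ∧ ¬ p ∣ orderOf g}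

variable {p : ℕ} {G : Type*} [Group G] [Finite G]

/-- the class of a `p`-regular element -/
def Reg.mk (x : G) (hx : ¬ p ∣ orderOf x) : Reg p G := ⟨ConjClasses.mk x, x, rfl, hx⟩

omit [Finite G] in
theorem Reg.mk_eq {x y : G} {hx : ¬ p ∣ orderOf x} {hy : ¬ p ∣ orderOf y} :
    Reg.mk x hx = Reg.mk y hy ↔ IsConj x y :=
  Subtype.ext_iff.trans ConjClasses.mk_eq_mk_iff_isConj

theorem Reg.surj [hp : Fact p.Prime] {H : Type*} [Group H] {f : G →* H}
    (hf : Function.Surjective f) (hH : ¬ p ∣ Nat.card H) :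
    Function.Surjective fun c : Reg p G => ConjClasses.map f c.1 := fun c => by
  obtain ⟨y, rfl⟩ := ConjClasses.mk_surjective c
  obtain ⟨x, hx, rfl⟩ := CS.exists_lift_coprime hf hp.out (y := y)
    ((hp.out.coprime_iff_not_dvd.mpr fun h => hH (h.trans (orderOf_dvd_natCard y))).symm)
  exact ⟨Reg.mk x (hp.out.coprime_iff_not_dvd.mp hx.symm), rfl⟩

omit [Finite G] in
theorem not_dvd_one' [hp : Fact p.Prime] : ¬ p ∣ orderOf (1 : G) := by
  rw [orderOf_one]
  exact hp.out.not_dvd_one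

theorem Reg.succ_le [hp : Fact p.Prime] {H : Type*} [Group H] {f : G →* H}
    (hf : Function.Surjective f) (hH : ¬ p ∣ Nat.card H) {n : G} (hn : n ≠ 1)
    (hp' : ¬ p ∣ orderOf n) (hfn : f n = 1) :
    Nat.card (ConjClasses H) + 1 ≤ Nat.card (Reg p G) := by
  simpa using card_add_le (Reg.surj hf hH) {Reg.mk n hp'} (by
    rintro _ rfl
    exact ⟨Reg.mk 1 not_dvd_one', fun e => hn (isConj_one_right.mp (Reg.mk_eq.mp e)),
      congrArg ConjClasses.mk ((map_one f).trans hfn.symm)⟩)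

theorem Reg.isConj [hp : Fact p.Prime] {H : Type*} [Group H] {f : G →* H}
    (hf : Function.Surjective f) (hH : ¬ p ∣ Nat.card H) {n : G} (hn : n ≠ 1)
    (hp' : ¬ p ∣ orderOf n) (hfn : f n = 1)
    (hk : Nat.card (Reg p G) ≤ Nat.card (ConjClasses H) + 1) {x y : G} (hx : ¬ p ∣ orderOf x)
    (hy : ¬ p ∣ orderOf y) (hxy : IsConj (f x) (f y)) (hx1 : x ≠ 1) (hy1 : y ≠ 1) :
    IsConj x y := by
  have key : ∀ {x y : G} (hx : ¬ p ∣ orderOf x) (hy : ¬ p ∣ orderOf y), IsConj (f x) (f y) →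
      x ≠ 1 → ¬ IsConj x n → IsConj x y := fun {x y} hx hy hxy hx1 hxn => by
    by_contra h
    have h1 := card_add_le (Reg.surj hf hH) {Reg.mk n hp', Reg.mk x hx} (by
      have h1 : Reg.mk 1 not_dvd_one' ∉ ({Reg.mk n hp', Reg.mk x hx} : Set (Reg p G)) := by
        rintro (e | e)
        exacts [hn (isConj_one_right.mp (Reg.mk_eq.mp e)), hx1 (isConj_one_right.mp (Reg.mk_eq.mp e))]
      have h2 : ConjClasses.mk (f 1) = ConjClasses.mk (f n) := by rw [map_one, hfn]
      rintro _ (rfl | rfl)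
      · exact ⟨_, h1, h2⟩
      · have h3 := ConjClasses.mk_eq_mk_iff_isConj.mpr hxy.symm
        by_cases h4 : IsConj y n
        · exact ⟨_, h1, h2.trans
            ((ConjClasses.mk_eq_mk_iff_isConj.mpr (f.map_isConj h4.symm)).trans h3)⟩
        · exact ⟨Reg.mk y hy, fun e => e.elim (fun e => h4 (Reg.mk_eq.mp e))
            fun e => h (Reg.mk_eq.mp e).symm, h3⟩)
    rw [Set.ncard_pair fun e => hxn (Reg.mk_eq.mp e).symm] at h1
    omega
  by_cases h1 : IsConj x n
  · by_cases h2 : IsConj y n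
    · exact h1.trans h2.symm
    · exact (key hy hx hxy.symm hy1 h2).symm
  · exact key hx hy hxy hx1 h1

/-- all nonidentity `p`-elements are conjugate -/
def PConj (p : ℕ) (G : Type*) [Group G] : Prop :=
  ∀ x y : G, x ≠ 1 → y ≠ 1 → (∃ k : ℕ, orderOf x = p ^ k) → (∃ k : ℕ, orderOf y = p ^ k) →
    IsConj x y

theorem PConj.map [hp : Fact p.Prime] (h : PConj p G) {H : Type*} [Group H] {f : G →* H}
    (hf : Function.Surjective f) : PConj p H := by
  have : Finite H := Finite.of_surjective f hf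
  have key : ∀ y : H, (∃ k : ℕ, orderOf y = p ^ k) → ∃ x, (∃ k : ℕ, orderOf x = p ^ k) ∧ f x = y := by
    rintro y ⟨k, hk⟩
    obtain ⟨Q, hQ⟩ := (IsPGroup.of_card (G := zpowers y) (by rw [Nat.card_zpowers, hk])).exists_le_sylow
    obtain ⟨P, rfl⟩ := Sylow.mapSurjective_surjective hf p Q
    obtain ⟨x, hx, rfl⟩ := hQ (mem_zpowers y)
    obtain ⟨l, hl⟩ := IsPGroup.iff_orderOf.mp P.isPGroup' ⟨x, hx⟩
    exact ⟨x, ⟨l, by rwa [← orderOf_mk x hx]⟩, rfl⟩
  intro x y hx hy hx' hy'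
  obtain ⟨x, h1, rfl⟩ := key x hx'
  obtain ⟨y, h2, rfl⟩ := key y hy'
  exact f.map_isConj (h x y (fun e => hx (by simp [e])) (fun e => hy (by simp [e])) h1 h2)

theorem PConj.exists_data [hp : Fact p.Prime] (h : PConj p G) (hs : IsPSolvable p G)
    (h0 : pPrimeCore p G = ⊥) (hd : p ∣ Nat.card G) :
    ∃ (V H : Subgroup G) (_ : V.Normal), IsElementaryAbelian p V ∧ V ≠ ⊥ ∧
      centralizer (V : Set G) ≤ V ∧ V.IsComplement' H ∧ ¬ p ∣ Nat.card H ∧
      ∀ v ∈ V, ∀ w ∈ V, v ≠ 1 → w ≠ 1 → ∃ g ∈ H, g * v * g⁻¹ = w := by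
  have hC := IsPSolvable.centralizer_pCore_le hs h0
  have hP := isPGroup_pCore p G
  set V := pCore p G
  obtain ⟨x, hx⟩ := exists_prime_orderOf_dvd_card' p hd
  have hx1 : x ≠ 1 := fun e => hp.out.ne_one (by rw [← hx, e, orderOf_one])
  have hV : V ≠ ⊥ := fun e => hx1 (mem_bot.mp (e ▸ hC fun y hy => by
    rw [mem_bot.mp (e ▸ hy : y ∈ (⊥ : Subgroup G)), one_mul, mul_one]))
  have : Nontrivial V := (nontrivial_iff_ne_bot V).mpr hV
  obtain ⟨⟨⟨z, hz⟩, hzc⟩, hz1⟩ := have := hP.center_nontrivial; exists_ne (1 : center V)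
  have hz1' : z ≠ 1 := fun e => hz1 (Subtype.ext (Subtype.ext e))
  have hord : ∀ v ∈ V, ∃ k, orderOf v = p ^ k := fun v hv => by
    obtain ⟨l, hl⟩ := IsPGroup.iff_orderOf.mp hP ⟨v, hv⟩
    exact ⟨l, by rwa [← orderOf_mk v hv]⟩
  have hab : ∀ a ∈ V, ∀ b ∈ V, a * b = b * a := fun a ha b hb => by
    by_cases h1 : a = 1
    · simp [h1]
    obtain ⟨c, rfl⟩ := isConj_iff.mp (h z a hz1' h1 (hord z hz) (hord a ha))
    have := congrArg Subtype.val (mem_center_iff.mp hzc
      ⟨c⁻¹ * b * c, Normal.conj_mem' inferInstance b hb c⟩)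
    simp only [coe_mul] at this
    calc _ = c * (z * (c⁻¹ * b * c)) * c⁻¹ := by group
      _ = _ := by rw [← this]; group
  have hE : IsElementaryAbelian p V := ⟨⟨⟨fun a b => Subtype.ext (hab a a.2 b b.2)⟩⟩, fun a ha => by
    by_cases h1 : a = 1
    · simp [h1]
    obtain ⟨c, rfl⟩ := isConj_iff.mp (h x a hx1 h1 ⟨1, by simp [hx]⟩ (hord a ha))
    rw [conj_pow, ← hx, pow_orderOf_eq_one, mul_one, mul_inv_cancel]⟩
  obtain ⟨P, hP'⟩ := hP.exists_le_sylow
  have hPV : (P : Subgroup G) = V := le_antisymm (fun y hy => by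
    by_cases h1 : y = 1
    · exact h1 ▸ V.one_mem
    obtain ⟨l, hl⟩ := IsPGroup.iff_orderOf.mp P.isPGroup' ⟨y, hy⟩
    obtain ⟨c, rfl⟩ := isConj_iff.mp (h z y hz1' h1 (hord z hz) ⟨l, by rwa [← orderOf_mk y hy]⟩)
    exact Normal.conj_mem inferInstance z hz c) hP'
  have hi : ¬ p ∣ V.index := hPV ▸ P.not_dvd_index
  obtain ⟨k, hk⟩ := IsPGroup.iff_card.mp hP
  obtain ⟨H, hH⟩ := exists_right_complement'_of_coprime (N := V)
    (hk ▸ (hp.out.coprime_iff_not_dvd.mpr hi).pow_left k)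
  refine ⟨V, H, inferInstance, hE, hV, hC, hH, by rwa [← hH.symm.index_eq_card],
    fun v hv w hw hv1 hw1 => ?_⟩
  obtain ⟨c, rfl⟩ := isConj_iff.mp (h v w hv1 hw1 (hord v hv) (hord w hw))
  obtain ⟨⟨⟨g, hg⟩, ⟨u, hu⟩⟩, rfl⟩ := hH.symm.2 c
  refine ⟨g, hg, ?_⟩
  simp only [mul_inv_rev]
  rw [mul_assoc g u, hab u hu v hv]
  group

theorem card_modEq_fix [Fact p.Prime] {x : G} {k : ℕ} (hx : x ^ p ^ k = 1) (D : Subgroup G)
    (hD : ∀ d ∈ D, x * d * x⁻¹ ∈ D) :
    Nat.card D ≡ Nat.card ↥(D ⊓ centralizer {x}) [MOD p] := by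
  obtain ⟨l, -, hl⟩ := (Nat.dvd_prime_pow Fact.out).mp (orderOf_dvd_of_pow_eq_one hx)
  have := Prim.card_modEq_card_inf_centralizer (A := zpowers x) (E := D)
    (IsPGroup.of_card (by rw [Nat.card_zpowers, hl]))
    (zpowers_le.mpr (mem_normalizer_fintype hD))
  rwa [zpowers_eq_closure, centralizer_closure] at this

/-- an element of order ten -/
def ten : SL(2, ZMod 5) := ⟨!![-1, -1; 0, -1], by decide⟩

/-- a lower triangular transvection -/
def lowT : SL(2, ZMod 5) := ⟨!![1, 0; 1, 1], by decide⟩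

theorem exc (N : Subgroup G) [N.Normal] (hN : N ≠ ⊥) (h11 : ¬ 11 ∣ Nat.card N)
    (hi : N.index = 14520) {f : G →* SL(2, ZMod 5)} (hf : Function.Surjective f)
    (hfN : ∀ n ∈ N, f n = 1) (hker : ∀ x, ¬ 11 ∣ orderOf x → f x = 1 → x ∈ N)
    (hS : Nat.card SL(2, ZMod 5) = 120) (hk : Nat.card (ConjClasses SL(2, ZMod 5)) = 9) :
    11 ≤ Nat.card (Reg 11 G) := by
  have : Fact (Nat.Prime 11) := ⟨by norm_num⟩
  by_contra h
  have : Nontrivial N := (nontrivial_iff_ne_bot N).mpr hN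
  obtain ⟨r, hr, hrN⟩ := Nat.exists_prime_and_dvd (Finite.one_lt_card (α := N)).ne'
  have := Fact.mk hr
  obtain ⟨⟨n, hnN⟩, hn⟩ := exists_prime_orderOf_dvd_card' r hrN
  rw [orderOf_mk] at hn
  have hn1 : n ≠ 1 := fun e => hr.ne_one (by rw [← hn, e, orderOf_one])
  have hreg : ∀ x, ¬ 11 ∣ orderOf x → ∀ m ∈ N, ¬ 11 ∣ orderOf (x * m) := fun x hx m hm h => by
    have h1 : (x * m) ^ orderOf x ∈ N := (QuotientGroup.eq_one_iff _).mp (by
      rw [QuotientGroup.mk_pow, QuotientGroup.mk_mul_of_mem _ hm, ← QuotientGroup.mk_pow,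
        pow_orderOf_eq_one, QuotientGroup.mk_one])
    have h2 : orderOf (x * m) ∣ orderOf x * Nat.card N := orderOf_dvd_of_pow_eq_one (by
      rw [pow_mul]
      exact congrArg Subtype.val (pow_card_eq_one' (x := (⟨_, h1⟩ : N))))
    exact ((Nat.Prime.dvd_mul Fact.out).mp (h.trans h2)).elim hx h11
  have hregN : ∀ m ∈ N, ¬ 11 ∣ orderOf m := fun m hm => by
    simpa using hreg 1 not_dvd_one' m hm
  have hc := @Reg.isConj 11 G _ _ _ _ _ f hf (by rw [hS]; norm_num) n hn1 (hregN n hnN) (hfN n hnN)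
    (by omega)
  have hcN : ∀ m ∈ N, m ≠ 1 → IsConj n m := fun m hm h1 =>
    hc (hregN n hnN) (hregN m hm) (by rw [hfN n hnN, hfN m hm]; exact IsConj.refl _) hn1 h1
  have hcx : ∀ x, ¬ 11 ∣ orderOf x → x ∉ N → ∀ m ∈ N, IsConj x (x * m) := fun x hx hxN m hm =>
    hc hx (hreg x hx m hm) (by rw [map_mul, hfN m hm, mul_one]; exact IsConj.refl _) (fun e => hxN (e ▸ N.one_mem))
      fun e => hxN ((N.mul_mem_cancel_right hm).mp (e ▸ N.one_mem))
  have hexp : ∀ m ∈ N, m ^ r = 1 := fun m hm => by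
    by_cases h1 : m = 1
    · simp [h1]
    obtain ⟨c, rfl⟩ := isConj_iff.mp (hcN m hm h1)
    rw [conj_pow, ← hn, pow_orderOf_eq_one, mul_one, mul_inv_cancel]
  have hP : IsPGroup r N := fun m => ⟨1, Subtype.ext (by simpa using hexp m m.2)⟩
  obtain ⟨a, ha⟩ := IsPGroup.iff_card.mp hP
  have hG := N.card_mul_index
  -- centralizers of regular elements outside `N`
  have hcen : ∀ x, ¬ 11 ∣ orderOf x → x ∉ N → Nat.card (centralizer {x}) ∣ 14520 := fun x hx hxN => by
    have h1 : (ConjClasses.mk x).carrier =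
        QuotientGroup.mk ⁻¹' ((QuotientGroup.mk (s := N)) '' (ConjClasses.mk x).carrier) := by
      refine (Set.subset_preimage_image _ _).antisymm ?_
      rintro y ⟨z, hz, e⟩
      rw [ConjClasses.mem_carrier_iff_mk_eq, ConjClasses.mk_eq_mk_iff_isConj] at hz ⊢
      obtain ⟨c, rfl⟩ := isConj_iff.mp hz
      have := hcx z (by rwa [← (MulAut.conj c).orderOf_eq]) (fun e => hxN (Normal.conj_mem inferInstance z e c))
        _ (QuotientGroup.eq.mp e)
      rw [mul_inv_cancel_left] at this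
      exact this.symm.trans hz
    have h2 := congrArg Set.ncard h1
    rw [ncard_preimage_mk, ncard_carrier_eq_index] at h2
    have h3 := (centralizer ({x} : Set G)).card_mul_index
    rw [h2, ← hG, hi, mul_left_comm] at h3
    exact Dvd.intro _ (Nat.eq_of_mul_eq_mul_left Nat.card_pos h3)
  -- elements of prime order `s ≠ r` act without fixed points
  have hfpf : ∀ x s, ¬ 11 ∣ s → ¬ r ∣ s → x ≠ 1 → x ^ s = 1 → ∀ m ∈ N, x * m = m * x → m = 1 :=
    fun x s h1 h2 hx1 hx m hm e => by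
      have hrs := hr.coprime_iff_not_dvd.mpr h2
      obtain ⟨c, hc⟩ := isConj_iff.mp (hcx x (fun h => h1 (h.trans (orderOf_dvd_of_pow_eq_one hx)))
        (fun h => hx1 (pow_eq_one_iff_of_coprime hrs |>.mp ⟨hexp x h, hx⟩)) m hm)
      have h3 := congrArg (· ^ s) hc
      simp only [conj_pow, hx, mul_one, mul_inv_cancel, Commute.mul_pow e, one_mul] at h3
      exact pow_eq_one_iff_of_coprime hrs |>.mp ⟨hexp m hm, h3.symm⟩
  have hidx : (centralizer {n}).index = Nat.card N - 1 := by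
    rw [← ncard_carrier_eq_index, ← Set.ncard_singleton (1 : G), ← SetLike.coe_sort_coe, Nat.card_coe_set_eq,
      ← Set.ncard_sdiff (by simp)]
    congr 1
    ext y
    rw [ConjClasses.mem_carrier_iff_mk_eq, ConjClasses.mk_eq_mk_iff_isConj]
    refine ⟨fun e => ⟨?_, fun e' => hn1 (isConj_one_right.mp (e' ▸ e))⟩, fun e => (hcN y e.1 e.2).symm⟩
    obtain ⟨c, rfl⟩ := isConj_iff.mp e.symm
    exact Normal.conj_mem inferInstance n hnN c
  have hs : ∀ s, s.Prime → s ∣ 120 → s ≠ r → ¬ s ∣ Nat.card (centralizer {n}) :=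
    fun s hs h1 h2 h3 => by
      have := Fact.mk hs
      obtain ⟨⟨x, hx⟩, hx'⟩ := exists_prime_orderOf_dvd_card' s h3
      rw [orderOf_mk] at hx'
      exact hn1 (hfpf x s (fun h => by have := h.trans h1; omega)
        (fun h => h2 ((Nat.prime_dvd_prime_iff_eq hr hs).mp h).symm)
        (fun e => hs.ne_one (by rw [← hx', e, orderOf_one])) (hx' ▸ pow_orderOf_eq_one x) n hnN
        (mem_centralizer_singleton_iff.mp hx))
  have hCn := (centralizer ({n} : Set G)).card_mul_index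
  rw [hidx, ← hG, hi] at hCn
  have hq : 1 < Nat.card N := Finite.one_lt_card
  have hd : Nat.card N - 1 ∣ 14520 :=
    ((Nat.coprime_self_sub_left hq.le).mpr (by simp)).dvd_of_dvd_mul_left (Dvd.intro_left _ hCn)
  have hs' : ∀ s k, s.Prime → s ∣ 120 → s ≠ r → s ^ k ∣ 14520 → s ^ k ∣ Nat.card N - 1 :=
    fun s k h1 h2 h3 h4 => ((h1.coprime_iff_not_dvd.mpr (hs s h1 h2 h3)).pow_left k).dvd_of_dvd_mul_left
      (hCn ▸ h4.mul_left _)
  have h2 := fun h => hs' 2 3 (by norm_num) (by norm_num) h (by norm_num)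
  have h3 := fun h => hs' 3 1 (by norm_num) (by norm_num) h (by norm_num)
  have h5 := fun h => hs' 5 1 (by norm_num) (by norm_num) h (by norm_num)
  -- an element of order ten
  obtain ⟨u, hu, hfu⟩ := CS.exists_lift_coprime hf (p := 11) Fact.out
    (y := ten) (Nat.Coprime.coprime_dvd_left (orderOf_dvd_natCard _)
      (by rw [hS]; norm_num))
  have hu' : ∀ k, ¬ 11 ∣ orderOf (u ^ k) := fun k h =>
    (Nat.Prime.coprime_iff_not_dvd Fact.out).mp hu.symm (h.trans (orderOf_pow_dvd k))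
  have hu10 : (u ^ 10) ^ r = 1 := hexp _ (hker _ (hu' 10) (by rw [map_pow, hfu]; decide))
  have hpow : ∀ m, Nat.card N = m → ∀ s, s.Prime → s ∣ m → s = r := fun m hm s hs h =>
    (Nat.prime_dvd_prime_iff_eq hs hr).mp (hs.dvd_of_dvd_pow (ha ▸ hm ▸ h))
  have huN : ∀ k, ten ^ k ≠ 1 → u ^ k ∉ N :=
    fun k h h' => h (by rw [← hfu, ← map_pow, hfN _ h'])
  by_cases e2 : r = 2
  · subst e2
    have h6 := card_modEq_fix (p := 2) (x := u ^ 5) (k := 2) (by rw [← hu10]; group) N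
      fun d hd => Normal.conj_mem inferInstance d hd _
    have : Fact (Nat.Prime 5) := ⟨by norm_num⟩
    have h7 := card_modEq_fix (p := 5) (x := u ^ 4) (k := 1) (by rw [← hu10]; group)
      (N ⊓ centralizer {u ^ 5}) fun d hd => ⟨Normal.conj_mem inferInstance d hd.1 _, by
        refine (centralizer _).mul_mem ((centralizer _).mul_mem ?_ hd.2) ((centralizer _).inv_mem ?_) <;>
          exact mem_centralizer_singleton_iff.mpr (by group)⟩
    rw [(eq_bot_iff_forall (N ⊓ centralizer {u ^ 5} ⊓ centralizer {u ^ 4})).mpr fun d hd =>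
      hfpf (u ^ 4) 5 (by norm_num) (by norm_num) (fun e => huN 4 (by decide) (e ▸ N.one_mem))
        (by rw [← hu10]; group) d hd.1.1 (mem_centralizer_singleton_iff.mp hd.2).symm,
      card_bot] at h7
    have h8 := (card_dvd_of_le (inf_le_right : N ⊓ _ ≤ _)).trans (hcen _ (hu' 5) (huN 5 (by decide)))
    obtain ⟨b, hb⟩ := IsPGroup.iff_card.mp (hP.to_le (inf_le_left : N ⊓ centralizer {u ^ 5} ≤ N))
    rw [hb] at h6 h7 h8
    have h9 : b ≤ 3 := by
      by_contra h
      have := (pow_dvd_pow 2 (show 4 ≤ b by omega)).trans h8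
      omega
    unfold Nat.ModEq at h6 h7
    interval_cases b <;> omega
  by_cases e5 : r = 5
  · subst e5
    have h6 := card_modEq_fix (p := 5) (x := u ^ 2) (k := 2) (by rw [← hu10]; group) N
      fun d hd => Normal.conj_mem inferInstance d hd _
    have h7 := relIndex_mul_relIndex ⊥ (N ⊓ centralizer {u ^ 2}) (centralizer {u ^ 2}) bot_le inf_le_right
    rw [relIndex_bot_left, relIndex_bot_left, inf_relIndex_right] at h7
    have h8 : 5 ∣ N.relIndex (centralizer {u ^ 2}) := by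
      let y : centralizer {u ^ 2} := ⟨u ^ 2, mem_centralizer_singleton_iff.mpr rfl⟩
      have h8 : orderOf (y : _ ⧸ N.subgroupOf (centralizer {u ^ 2})) = 5 :=
        orderOf_eq_prime ((QuotientGroup.eq_one_iff (y ^ 5)).mpr (hker _
          (by simpa [y, ← pow_mul] using hu' 10) (by change f ((u ^ 2) ^ 5) = 1; rw [map_pow, map_pow, hfu]; decide)))
          fun e => huN 2 (by decide) ((QuotientGroup.eq_one_iff y).mp e)
      exact h8 ▸ orderOf_dvd_natCard _
    have h9 := (Nat.mul_dvd_mul ((h6.dvd_iff dvd_rfl).mp hrN) h8).trans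
      (h7 ▸ hcen _ (hu' 2) (huN 2 (by decide)))
    omega
  have h6 := h2 (Ne.symm e2)
  have h7 := h5 (Ne.symm e5)
  obtain ⟨t, ht⟩ : 40 ∣ Nat.card N - 1 := by omega
  have h9 : t ∈ Nat.divisors 363 := Nat.mem_divisors.mpr
    ⟨Nat.dvd_of_mul_dvd_mul_left (show 0 < 40 by norm_num) (ht ▸ hd), by norm_num⟩
  rw [show Nat.divisors 363 = {1, 3, 11, 33, 121, 363} by decide +kernel] at h9
  simp only [Finset.mem_insert, Finset.mem_singleton] at h9
  by_cases e3 : r = 3
  · subst e3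
    have h10 := hpow 441
    have := fun h => h10 h 7 (by norm_num) (by norm_num)
    omega
  have h8 := h3 (Ne.symm e3)
  have h10 := fun h => (hpow 14521 h 13 (by norm_num) (by norm_num)).trans
    (hpow 14521 h 1117 (by norm_num) (by norm_num)).symm
  have h12 : Nat.card N = 1321 := by omega
  have : Fact (Nat.Prime 1321) := ⟨by norm_num⟩
  have := isCyclic_of_prime_card h12
  have h13 : ∀ x y : G, ⁅x, y⁆ ∈ centralizer {n} := fun x y => by
    have h1 : MulAut.conjNormal (H := N) ⁅x, y⁆ = 1 := by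
      rw [map_commutatorElement, commutatorElement_eq_one_iff_mul_comm]
      exact (IsCyclic.mulAutMulEquiv N).injective (by rw [map_mul, map_mul, mul_comm])
    have h2 := congrArg Subtype.val (DFunLike.congr_fun h1 ⟨n, hnN⟩)
    exact mem_centralizer_singleton_iff.mpr (mul_inv_eq_iff_eq_mul.mp h2)
  obtain ⟨v, hv⟩ := hf lowT
  have h14 : orderOf (f ⁅u, v⁆) ≠ 1 := by
    rw [Ne, orderOf_eq_one_iff, map_commutatorElement, commutatorElement_eq_one_iff_mul_comm, hfu, hv]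
    decide
  obtain ⟨s, hs1, hs2⟩ := Nat.exists_prime_and_dvd h14
  have h15 : s ∣ 120 := hs2.trans (hS ▸ orderOf_dvd_natCard _)
  refine hs s hs1 h15 (fun e => ?_) (hs2.trans ((orderOf_map_dvd f _).trans
    ((centralizer {n}).orderOf_dvd_natCard (h13 u v))))
  rw [← e, h12] at hrN
  have := (Nat.dvd_gcd hrN h15)
  exact hs1.not_dvd_one this

end CL.KT
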